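import Cfsg.Agent.H60.HalfFix.Orbits

/-! Irreducible representation of a solvable group generated by conjugates of an element of prime
order at least five, with a noncentral abelian normal subgroup: the fixed space is less than half. -/

set_option autoImplicit false

namespace Cfsg.Agent.H60.HalfFix

open MulAction

theorem eq_bot_or_top {k G V : Type*} [Group G] [Field k] [AddCommGroup V] [Module k V]
    (ρ : Representation k G V) [ρ.IsIrreducible] (W : Submodule k V)
    (h : ∀ g : G, ∀ v ∈ W, ρ g v ∈ W) : W = ⊥ ∨ W = ⊤ := by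
  rcases IsSimpleOrder.eq_bot_or_eq_top
    (⟨W, fun g v hv => h g v hv⟩ : Subrepresentation ρ) with h1 | h1
  · exact Or.inl (congrArg Subrepresentation.toSubmodule h1)
  · exact Or.inr (congrArg Subrepresentation.toSubmodule h1)

/-- A linear map permuting three commuting operators with injective differences. -/
theorem two_mul_lt_of_moved {k V : Type*} [Field k] [AddCommGroup V] [Module k V]
    [FiniteDimensional k V] [Nontrivial V] (X a b b' : Module.End k V)
    (hXa : X * a = b * X) (hXb : X * b = b' * X)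
    (hab : a * b = b * a) (hab' : a * b' = b' * a)
    (h1 : Function.Injective (a - b)) (h2 : Function.Injective (a - b'))
    (h3 : Function.Injective (b - b')) :
    2 * Module.finrank k ↥(LinearMap.ker (X - LinearMap.id)) < Module.finrank k V := by
  set C := LinearMap.ker (X - LinearMap.id) with hC
  have hfix : ∀ c ∈ C, X c = c := fun c hc => sub_eq_zero.mp hc
  have hXac : ∀ c ∈ C, X (a c) = b c := fun c hc => by
    have := LinearMap.congr_fun hXa c
    simp only [Module.End.mul_apply] at this
    rw [this, hfix c hc]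
  have hXbc : ∀ c ∈ C, X (b c) = b' c := fun c hc => by
    have := LinearMap.congr_fun hXb c
    simp only [Module.End.mul_apply] at this
    rw [this, hfix c hc]
  let Φ : ↥C × ↥C →ₗ[k] V := (C.subtype).coprod (a ∘ₗ C.subtype)
  have hΦ : Function.Injective Φ := by
    rw [injective_iff_map_eq_zero]
    rintro ⟨c, d⟩ h
    have h0 : (c : V) + a d = 0 := by simpa [Φ] using h
    have h' : (c : V) + b d = 0 := by
      have := congrArg X h0
      rwa [map_add, hfix _ c.2, hXac _ d.2, map_zero] at this
    have hd : (d : V) = 0 := by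
      apply h1
      rw [map_zero, LinearMap.sub_apply]
      have := h0.trans h'.symm
      exact sub_eq_zero.mpr (add_left_cancel this)
    have hc : (c : V) = 0 := by simpa [hd] using h0
    exact Prod.ext (Subtype.ext hc) (Subtype.ext hd)
  have hle := LinearMap.finrank_le_finrank_of_injective hΦ
  rw [Module.finrank_prod] at hle
  rcases Nat.eq_zero_or_pos (Module.finrank k ↥C) with h0 | hpos
  · rw [h0]; exact Module.finrank_pos
  refine lt_of_le_of_ne (by omega) fun heq => ?_
  have hsurj : Function.Surjective Φ :=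
    (LinearMap.injective_iff_surjective_of_finrank_eq_finrank (by rw [Module.finrank_prod]; omega)).mp hΦ
  obtain ⟨c, hc⟩ := Module.finrank_pos_iff_exists_ne_zero.mp hpos
  obtain ⟨⟨c1, c2⟩, hcc⟩ := hsurj (a (a c))
  have e0 : (c1 : V) + a c2 = a (a c) := by simpa [Φ] using hcc
  have hXaac : X (a (a (c : V))) = b (b c) := by
    have := LinearMap.congr_fun hXa (a c)
    simp only [Module.End.mul_apply] at this
    rw [this, hXac _ c.2]
  have hXbbc : X (b (b (c : V))) = b' (b' c) := by
    have := LinearMap.congr_fun hXb (b c)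
    simp only [Module.End.mul_apply] at this
    rw [this, hXbc _ c.2]
  have e1 : (c1 : V) + b c2 = b (b c) := by
    have := congrArg X e0
    rwa [map_add, hfix _ c1.2, hXac _ c2.2, hXaac] at this
  have e2 : (c1 : V) + b' c2 = b' (b' c) := by
    have := congrArg X e1
    rwa [map_add, hfix _ c1.2, hXbc _ c2.2, hXbbc] at this
  have key : ∀ β : Module.End k V, a * β = β * a → Function.Injective (a - β) →
      (c1 : V) + β c2 = β (β c) → a c + β c = c2 := by
    intro β hcomm hinj he
    apply hinj
    have hc : a (β (c : V)) = β (a c) := LinearMap.congr_fun hcomm (c : V)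
    simp only [LinearMap.sub_apply, map_add, hc]
    have h4 : a (a (c : V)) - β (β c) = a c2 - β c2 := by rw [← e0, ← he]; abel
    rw [← h4]; abel
  have k1 := key b hab h1 e1
  have k2 := key b' hab' h2 e2
  apply hc
  apply Subtype.ext
  apply h3
  rw [ZeroMemClass.coe_zero, map_zero, LinearMap.sub_apply, sub_eq_zero]
  exact add_left_cancel (k1.trans k2.symm)

/-- Noncentral abelian normal subgroup: `x` fixes less than half. -/
theorem half_of_abelian_normal {k G V : Type*} [Group G] [Finite G] [Group.IsSolvable G] [Field k]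
    [AddCommGroup V] [Module k V] [FiniteDimensional k V]
    (ρ : Representation k G V) [ρ.IsIrreducible] (hfaith : Function.Injective ρ)
    {p : ℕ} (hp : p.Prime) (hp5 : 5 ≤ p) (x : G) (hxp : x ^ p = 1)
    (hgen : Subgroup.normalClosure ({x} : Set G) = ⊤)
    (A : Subgroup G) [hAn : A.Normal] (hAc : ∀ a ∈ A, ∀ b ∈ A, a * b = b * a)
    (hA : ¬ A ≤ Subgroup.center G) :
    2 * Module.finrank k ↥(LinearMap.ker (ρ x - LinearMap.id)) < Module.finrank k V := by
  classical
  haveI hVnt : Nontrivial V := by
    by_contra h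
    rw [not_nontrivial_iff_subsingleton] at h
    exact bot_ne_top (α := Subrepresentation ρ) (Subrepresentation.toSubmodule_injective
      (Subsingleton.elim _ _))
  have hinjρ : ∀ g : G, Function.Injective (ρ g) := fun g u v h => by
    have := congrArg (ρ g⁻¹) h
    rwa [← Module.End.mul_apply, ← Module.End.mul_apply, ← map_mul, inv_mul_cancel, map_one,
      Module.End.one_apply, Module.End.one_apply] at this
  -- the commutative algebra generated by `A`
  set R : Subalgebra k (Module.End k V) := Algebra.adjoin k (ρ '' (A : Set G)) with hR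
  haveI hRc : IsMulCommutative ↥R := Algebra.isMulCommutative_adjoin k (by
    rintro _ ⟨a, ha, rfl⟩ _ ⟨b, hb, rfl⟩
    rw [← map_mul, ← map_mul, hAc a ha b hb])
  letI : CommRing ↥R := { (inferInstance : Ring ↥R) with mul_comm := hRc.is_comm.comm }
  haveI : IsArtinianRing ↥R := IsArtinianRing.of_finite k ↥R
  have hmemR : ∀ a ∈ A, ρ a ∈ R := fun a ha => Algebra.subset_adjoin ⟨a, ha, rfl⟩
  have hcomm : ∀ r s : ↥R, ∀ v, (r : Module.End k V) ((s : Module.End k V) v) =
      (s : Module.End k V) ((r : Module.End k V) v) := fun r s v =>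
    LinearMap.congr_fun (congrArg Subtype.val (mul_comm r s)) v
  let T : Ideal ↥R → Submodule k V := fun P => ⨅ r ∈ P, LinearMap.ker (r : Module.End k V)
  have hT : ∀ {P : Ideal ↥R} {v : V}, v ∈ T P ↔ ∀ r ∈ P, (r : Module.End k V) v = 0 := by
    intro P v; simp [T, Submodule.mem_iInf]
  have hTinv : ∀ (P : Ideal ↥R) (r : ↥R), ∀ v ∈ T P, (r : Module.End k V) v ∈ T P := by
    intro P r v hv
    rw [hT] at hv ⊢
    intro s hs
    rw [hcomm, hv s hs, map_zero]
  -- conjugation acts on the algebra
  have hconjR : ∀ (g : G), ∀ r ∈ R, ρ g * r * ρ g⁻¹ ∈ R := by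
    intro g r hr
    induction hr using Algebra.adjoin_induction with
    | mem y hy =>
      obtain ⟨a, ha, rfl⟩ := hy
      rw [← map_mul, ← map_mul]
      exact hmemR _ (hAn.conj_mem a ha g)
    | algebraMap c =>
      rw [← Algebra.commutes, mul_assoc, ← map_mul, mul_inv_cancel, map_one, mul_one]
      exact R.algebraMap_mem c
    | add y z _ _ hy hz => rw [mul_add, add_mul]; exact R.add_mem hy hz
    | mul y z _ _ hy hz =>
      rw [show ρ g * (y * z) * ρ g⁻¹ = (ρ g * y * ρ g⁻¹) * (ρ g * z * ρ g⁻¹) by
        simp only [mul_assoc]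
        rw [← mul_assoc (ρ g⁻¹) (ρ g), ← map_mul, inv_mul_cancel, map_one, one_mul]]
      exact R.mul_mem hy hz
  let φ : G → (↥R →+* ↥R) := fun g =>
    { toFun := fun r => ⟨ρ g * r * ρ g⁻¹, hconjR g r r.2⟩
      map_one' := Subtype.ext (by
        show ρ g * 1 * ρ g⁻¹ = 1
        rw [mul_one, ← map_mul, mul_inv_cancel, map_one])
      map_mul' := fun r s => Subtype.ext (by
        show ρ g * ((r : Module.End k V) * s) * ρ g⁻¹ = (ρ g * r * ρ g⁻¹) * (ρ g * s * ρ g⁻¹)
        simp only [mul_assoc]
        rw [← mul_assoc (ρ g⁻¹) (ρ g), ← map_mul, inv_mul_cancel, map_one, one_mul])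
      map_zero' := Subtype.ext (by show ρ g * 0 * ρ g⁻¹ = 0; simp)
      map_add' := fun r s => Subtype.ext (by
        show ρ g * ((r : Module.End k V) + s) * ρ g⁻¹ = ρ g * r * ρ g⁻¹ + ρ g * s * ρ g⁻¹
        rw [mul_add, add_mul]) }
  have hTmap : ∀ (g : G) (P : Ideal ↥R), (T P).map (ρ g) = T (P.comap (φ g⁻¹)) := by
    intro g P
    apply le_antisymm
    · rintro _ ⟨v, hv, rfl⟩
      rw [SetLike.mem_coe, hT] at hv
      rw [hT]
      intro r hr
      have h := hv _ hr
      simp only [φ, RingHom.coe_mk, MonoidHom.coe_mk, OneHom.coe_mk, inv_inv,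
        Module.End.mul_apply] at h
      exact (hinjρ g⁻¹) (by rw [h, map_zero])
    · intro v hv
      rw [hT] at hv
      refine ⟨ρ g⁻¹ v, ?_, by rw [← Module.End.mul_apply, ← map_mul, mul_inv_cancel, map_one,
        Module.End.one_apply]⟩
      rw [SetLike.mem_coe, hT]
      intro r hr
      have hmem : φ g r ∈ P.comap (φ g⁻¹) := by
        rw [Ideal.mem_comap]
        have : φ g⁻¹ (φ g r) = r := by
          apply Subtype.ext
          show ρ g⁻¹ * (ρ g * r * ρ g⁻¹) * ρ g⁻¹⁻¹ = r
          rw [inv_inv]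
          simp only [mul_assoc]
          rw [← map_mul, inv_mul_cancel, map_one, mul_one, ← mul_assoc, ← map_mul, inv_mul_cancel,
            map_one, one_mul]
        rwa [this]
      have h := hv _ hmem
      simp only [φ, RingHom.coe_mk, MonoidHom.coe_mk, OneHom.coe_mk, Module.End.mul_apply] at h
      exact (hinjρ g) (by rw [h, map_zero])
  -- some maximal ideal has nonzero annihilated space
  obtain ⟨W, ⟨hW0, hWinv⟩, hWmin⟩ : ∃ W : Submodule k V,
      (W ≠ ⊥ ∧ ∀ r : ↥R, ∀ v ∈ W, (r : Module.End k V) v ∈ W) ∧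
      ∀ W' : Submodule k V, (W' ≠ ⊥ ∧ ∀ r : ↥R, ∀ v ∈ W', (r : Module.End k V) v ∈ W') →
        Module.finrank k W ≤ Module.finrank k W' := by
    have hex : ∃ d, ∃ W : Submodule k V,
        (W ≠ ⊥ ∧ ∀ r : ↥R, ∀ v ∈ W, (r : Module.End k V) v ∈ W) ∧ Module.finrank k W = d :=
      ⟨_, ⊤, ⟨top_ne_bot, fun _ _ _ => trivial⟩, rfl⟩
    obtain ⟨W, hW, hWd⟩ := Nat.find_spec hex
    exact ⟨W, hW, fun W' hW' => hWd ▸ Nat.find_min' hex ⟨W', hW', rfl⟩⟩
  let P₀ : Ideal ↥R :=
    { carrier := {r | ∀ v ∈ W, (r : Module.End k V) v = 0}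
      zero_mem' := fun v _ => rfl
      add_mem' := fun {r s} hr hs v hv => by
        show (r : Module.End k V) v + (s : Module.End k V) v = 0
        rw [hr v hv, hs v hv, add_zero]
      smul_mem' := fun c r hr v hv => by
        show (c : Module.End k V) ((r : Module.End k V) v) = 0
        rw [hr v hv, map_zero] }
  have hP₀ : P₀.IsPrime := by
    refine ⟨fun h => hW0 ((Submodule.eq_bot_iff _).mpr fun v hv => ?_), fun {r s} hrs => ?_⟩
    · have h1 : (1 : ↥R) ∈ P₀ := h ▸ Submodule.mem_top
      exact h1 v hv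
    · by_contra hno
      rw [not_or] at hno
      have himg : W.map (r : Module.End k V) = W := by
        have hle : W.map (r : Module.End k V) ≤ W := Submodule.map_le_iff_le_comap.mpr (hWinv r)
        apply Submodule.eq_of_le_of_finrank_le hle
        refine hWmin _ ⟨fun hb => hno.1 fun v hv => ?_, ?_⟩
        · exact (Submodule.eq_bot_iff _).mp hb _ ⟨v, hv, rfl⟩
        · rintro t _ ⟨v, hv, rfl⟩
          exact ⟨_, hWinv t v hv, hcomm r t v⟩
      refine hno.2 fun v hv => ?_
      obtain ⟨u, hu, rfl⟩ := himg.ge hv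
      rw [hcomm]
      exact hrs u hu
  haveI := hP₀
  have hP₀m : P₀.IsMaximal := IsArtinianRing.isMaximal_of_isPrime P₀
  have hP₀0 : T P₀ ≠ ⊥ := fun h => hW0 (eq_bot_iff.mpr (h ▸ fun v hv => hT.mpr fun r hr => hr v hv))
  -- index set: the nonzero spaces
  let S : Set (Submodule k V) := {U | U ≠ ⊥ ∧ ∃ P : Ideal ↥R, P.IsMaximal ∧ T P = U}
  have hSmap : ∀ (g : G), ∀ U ∈ S, U.map (ρ g) ∈ S := by
    rintro g U ⟨hU, P, hP, rfl⟩
    refine ⟨fun h => hU ?_, P.comap (φ g⁻¹), ?_, (hTmap g P).symm⟩
    · refine (Submodule.eq_bot_iff _).mpr fun v hv => hinjρ g ?_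
      rw [map_zero]; exact (Submodule.eq_bot_iff _).mp h _ ⟨v, hv, rfl⟩
    · haveI := hP.isPrime
      exact IsArtinianRing.isMaximal_of_isPrime _
  haveI hSfin : Finite ↥S := by
    refine Finite.of_surjective
      (fun P : {P : MaximalSpectrum ↥R // T P.asIdeal ≠ ⊥} => (⟨T P.1.asIdeal, P.2, P.1.asIdeal, P.1.isMaximal, rfl⟩ : ↥S)) ?_
    rintro ⟨U, hU, P, hP, rfl⟩
    exact ⟨⟨⟨P, hP⟩, hU⟩, rfl⟩
  letI : Fintype ↥S := Fintype.ofFinite _
  -- separating idempotent-like elements
  have hsep : ∀ U : ↥S, ∃ e : ↥R, (∀ v ∈ (U : Submodule k V), (e : Module.End k V) v = v) ∧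
      ∀ U' : ↥S, U' ≠ U → ∀ v ∈ (U' : Submodule k V), (e : Module.End k V) v = 0 := by
    rintro ⟨U, hU, P, hP, rfl⟩
    have hone : ∀ U' : ↥S, U'.1 ≠ T P → ∃ f : ↥R, 1 - f ∈ P ∧
        ∀ v ∈ (U' : Submodule k V), (f : Module.End k V) v = 0 := by
      rintro ⟨U', hU', P', hP', rfl⟩ hne
      have hPP : P' ⊔ P = ⊤ := Ideal.IsMaximal.coprime_of_ne hP' hP (fun h => hne (congrArg T h))
      obtain ⟨f, hf, f', hf', hsum⟩ := Submodule.mem_sup.mp (hPP ▸ Submodule.mem_top : (1 : ↥R) ∈ P' ⊔ P)
      exact ⟨f, by rw [← hsum, add_sub_cancel_left]; exact hf', fun v hv => hT.mp hv f hf⟩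
    choose f hf1 hf2 using hone
    let F : ↥S → ↥R := fun U' => if h : U'.1 ≠ T P then f U' h else 1
    refine ⟨∏ U', F U', fun v hv => ?_, fun U' hne v hv => ?_⟩
    · have h1 : 1 - ∏ U', F U' ∈ P := by
        rw [← Ideal.Quotient.mk_eq_mk_iff_sub_mem, map_one, map_prod]
        refine (Finset.prod_eq_one fun U' _ => ?_).symm
        by_cases h : U'.1 ≠ T P
        · simp only [F, dif_pos h]
          rw [← map_one (Ideal.Quotient.mk P), eq_comm, Ideal.Quotient.mk_eq_mk_iff_sub_mem]
          exact hf1 U' h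
        · simp only [F, dif_neg h, map_one]
      have := hT.mp hv _ h1
      simp only [AddSubgroupClass.coe_sub, OneMemClass.coe_one, LinearMap.sub_apply,
        Module.End.one_apply, sub_eq_zero] at this
      exact this.symm
    · have h : U'.1 ≠ T P := fun h => hne (Subtype.ext h)
      rw [← Finset.prod_erase_mul _ _ (Finset.mem_univ U'), MulMemClass.coe_mul, Module.End.mul_apply]
      simp only [F, dif_pos h]
      rw [hf2 U' h v hv, map_zero]
  choose e he1 he2 using hsep
  have hsum : ∀ v : V, v = ∑ U : ↥S, (e U : Module.End k V) v ∧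
      ∀ U : ↥S, (e U : Module.End k V) v ∈ (U : Submodule k V) := by
    have htop : (⨆ U : ↥S, (U : Submodule k V)) = ⊤ := by
      refine (eq_bot_or_top ρ _ fun g => ?_).resolve_left fun h => hP₀0 ?_
      · have hle : (⨆ U : ↥S, (U : Submodule k V)).map (ρ g) ≤ ⨆ U : ↥S, (U : Submodule k V) := by
          rw [Submodule.map_iSup]
          exact iSup_le fun U => le_iSup (fun U : ↥S => (U : Submodule k V)) ⟨_, hSmap g U U.2⟩
        exact fun v hv => hle ⟨v, hv, rfl⟩
      · exact le_bot_iff.mp (h ▸ le_iSup (fun U : ↥S => (U : Submodule k V)) ⟨T P₀, hP₀0, P₀, hP₀m, rfl⟩)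
    intro v
    have hv : v ∈ ⨆ U : ↥S, (U : Submodule k V) := htop ▸ Submodule.mem_top
    induction hv using Submodule.iSup_induction' with
    | mem U v hv =>
      refine ⟨?_, fun U' => ?_⟩
      · rw [Finset.sum_eq_single U (fun U' _ hne => he2 U' U (Ne.symm hne) v hv)
          (fun h => absurd (Finset.mem_univ U) h), he1 U v hv]
      · by_cases h : U' = U
        · subst h; rw [he1 U' v hv]; exact hv
        · rw [he2 U' U (Ne.symm h) v hv]; exact Submodule.zero_mem _
    | zero => simp
    | add u w _ _ hu hw =>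
      refine ⟨?_, fun U => by rw [map_add]; exact Submodule.add_mem _ (hu.2 U) (hw.2 U)⟩
      simp only [map_add, Finset.sum_add_distrib, ← hu.1, ← hw.1]
  let U₀ : ↥S := ⟨T P₀, hP₀0, P₀, hP₀m, rfl⟩
  rcases subsingleton_or_nontrivial ↥S with hsub | hnt
  · -- one block: the algebra is a field
    have htopW : T P₀ = ⊤ := by
      rw [eq_top_iff]
      intro v _
      have h := hsum v
      rw [Fintype.sum_subsingleton _ U₀] at h
      rw [h.1]; exact h.2 U₀
    have hP0bot : ∀ r ∈ P₀, r = 0 := fun r hr => Subtype.ext (LinearMap.ext fun v =>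
      hT.mp (htopW ▸ Submodule.mem_top : v ∈ T P₀) r hr)
    have hinjR : ∀ r : ↥R, r ≠ 0 → Function.Injective (r : Module.End k V) := by
      intro r hr
      obtain ⟨s, i, hi, hsi⟩ := hP₀m.exists_inv (fun h => hr (hP0bot r h))
      rw [hP0bot i hi, add_zero] at hsi
      intro u v huv
      have := congrArg (s : Module.End k V) huv
      rwa [← Module.End.mul_apply, ← Module.End.mul_apply, ← MulMemClass.coe_mul, hsi,
        OneMemClass.coe_one, Module.End.one_apply, Module.End.one_apply] at this
    -- an element of `A` moved by `x`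
    obtain ⟨a, haA, hax⟩ : ∃ a ∈ A, x * a * x⁻¹ ≠ a := by
      by_contra hno
      push Not at hno
      refine hA fun a ha => ?_
      have htop : Subgroup.centralizer (A : Set G) = ⊤ := by
        rw [eq_top_iff, ← hgen]
        refine Subgroup.normalClosure_le_normal (Set.singleton_subset_iff.mpr ?_)
        rw [SetLike.mem_coe, Subgroup.mem_centralizer_iff]
        intro b hb
        exact (mul_inv_eq_iff_eq_mul.mp (hno b hb)).symm
      rw [Subgroup.mem_center_iff]
      intro g
      exact ((Subgroup.mem_centralizer_iff.mp (htop.symm ▸ Subgroup.mem_top g : g ∈ Subgroup.centralizer (A : Set G))) a ha).symm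
    set b := x * a * x⁻¹ with hb
    set b' := x * b * x⁻¹ with hb'
    have hbA : b ∈ A := hAn.conj_mem a haA x
    have hb'A : b' ∈ A := hAn.conj_mem b hbA x
    have hbb' : b ≠ b' := fun h => hax (by
      have : x * a * x⁻¹ = x * b * x⁻¹ := by rw [← hb, ← hb']; exact h
      exact (mul_left_cancel (mul_right_cancel this)).symm)
    have hab' : a ≠ b' := fun h => by
      have h2 : x ^ 2 * a = a * x ^ 2 := by
        conv_rhs => rw [h, hb', hb]
        simp [pow_two, mul_assoc]
      have hc : Commute (x ^ 2) a := h2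
      obtain ⟨m, hm⟩ : ∃ m, p + 1 = 2 * m := by
        rcases hp.eq_two_or_odd with h2p | h2p
        · omega
        · exact ⟨(p + 1) / 2, by omega⟩
      have hx1 : x = (x ^ 2) ^ m := by rw [← pow_mul, ← hm, pow_succ, hxp, one_mul]
      have : Commute x a := hx1 ▸ hc.pow_left m
      exact hax (by show x * a * x⁻¹ = a; rw [this.eq, mul_inv_cancel_right])
    have hdiff : ∀ u ∈ A, ∀ w ∈ A, u ≠ w → Function.Injective (ρ u - ρ w) := fun u hu w hw hne =>
      hinjR (⟨ρ u, hmemR u hu⟩ - ⟨ρ w, hmemR w hw⟩) (fun h => hne (hfaith (sub_eq_zero.mp (congrArg Subtype.val h))))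
    refine two_mul_lt_of_moved (ρ x) (ρ a) (ρ b) (ρ b') ?_ ?_ ?_ ?_ (hdiff a haA b hbA (Ne.symm hax))
      (hdiff a haA b' hb'A hab') (hdiff b hbA b' hb'A hbb')
    · rw [← map_mul, ← map_mul, hb]; congr 1; group
    · rw [← map_mul, ← map_mul, hb']; congr 1; group
    · rw [← map_mul, ← map_mul, hAc a haA b hbA]
    · rw [← map_mul, ← map_mul, hAc a haA b' hb'A]
  · -- several blocks, permuted transitively
    letI : MulAction G ↥S :=
      { smul := fun g U => ⟨(U : Submodule k V).map (ρ g), hSmap g U U.2⟩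
        one_smul := fun U => Subtype.ext (by
          show (U : Submodule k V).map (ρ 1) = U
          rw [map_one]; exact Submodule.map_id _)
        mul_smul := fun g h U => Subtype.ext (by
          show (U : Submodule k V).map (ρ (g * h)) = ((U : Submodule k V).map (ρ h)).map (ρ g)
          rw [map_mul]; exact Submodule.map_comp _ _ _) }
    have hsmul : ∀ (g : G) (U : ↥S), ∀ v ∈ (U : Submodule k V), ρ g v ∈ ((g • U : ↥S) : Submodule k V) :=
      fun g U v hv => ⟨v, hv, rfl⟩
    haveI : IsPretransitive G ↥S := by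
      refine isPretransitive_iff_base (G := G) U₀ |>.mpr fun U => ?_
      by_contra hno
      push Not at hno
      have hO : (⨆ g : G, ((g • U₀ : ↥S) : Submodule k V)) = ⊤ := by
        refine (eq_bot_or_top ρ _ fun g => ?_).resolve_left fun h => hP₀0 ?_
        · have hle : (⨆ g : G, ((g • U₀ : ↥S) : Submodule k V)).map (ρ g) ≤
              ⨆ g : G, ((g • U₀ : ↥S) : Submodule k V) := by
            rw [Submodule.map_iSup]
            refine iSup_le fun h => le_trans (le_of_eq ?_) (le_iSup (fun g : G => ((g • U₀ : ↥S) : Submodule k V)) (g * h))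
            rw [mul_smul]; rfl
          exact fun v hv => hle ⟨v, hv, rfl⟩
        · refine le_bot_iff.mp (h ▸ ?_)
          have := le_iSup (fun g : G => ((g • U₀ : ↥S) : Submodule k V)) 1
          rwa [one_smul] at this
      apply U.2.1
      refine (Submodule.eq_bot_iff _).mpr fun v hv => ?_
      have hv2 : v ∈ ⨆ g : G, ((g • U₀ : ↥S) : Submodule k V) := hO ▸ Submodule.mem_top
      rw [← he1 U v hv]
      clear hv
      induction hv2 using Submodule.iSup_induction' with
      | mem g w hw => exact he2 U (g • U₀) (hno g) w hw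
      | zero => simp
      | add u w _ _ hu hw => rw [map_add, hu, hw, add_zero]
    set d := Module.finrank k ↥(U₀ : Submodule k V) with hd
    have hdim : ∀ U : ↥S, Module.finrank k ↥(U : Submodule k V) = d := by
      intro U
      obtain ⟨g, rfl⟩ := exists_smul_eq G U₀ U
      exact (Submodule.equivMapOfInjective (ρ g) (hinjρ g) _).finrank_eq.symm
    set C := LinearMap.ker (ρ x - LinearMap.id) with hC
    let Pc : ↥S → ↥C →ₗ[k] V := fun U => (e U : Module.End k V) ∘ₗ C.subtype
    have hrange : ∀ U, Module.finrank k ↥(LinearMap.range (Pc U)) ≤ d := by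
      intro U
      rw [← hdim U]
      refine Submodule.finrank_mono ?_
      rintro _ ⟨c, rfl⟩
      exact (hsum c).2 U
    have hequiv : ∀ (U : ↥S) (c : ↥C), Pc U c = 0 → Pc (x • U) c = 0 := by
      intro U c h0
      have hfix : ρ x (c : V) = c := sub_eq_zero.mp c.2
      show (e (x • U) : Module.End k V) c = 0
      rw [← hfix, (hsum c).1, map_sum, map_sum]
      refine Finset.sum_eq_zero fun U' _ => ?_
      by_cases h : U' = U
      · subst h
        have h0' : (e U' : Module.End k V) c = 0 := h0
        rw [h0', map_zero, map_zero]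
      · exact he2 (x • U) (x • U') (fun hh => h (smul_left_cancel x hh)) _
          (hsmul x U' _ ((hsum c).2 U'))
    let σ : Equiv.Perm ↥S := MulAction.toPerm x
    have hequivσ : ∀ (γ : ↥(Subgroup.zpowers σ)) (U : ↥S) (c : ↥C), Pc U c = 0 → Pc (γ • U) c = 0 := by
      rintro ⟨γ, hγ⟩ U c h0
      obtain ⟨j, hj⟩ := (isOfFinOrder_of_finite σ).mem_powers_iff_mem_zpowers.mpr hγ
      simp only at hj
      subst hj
      show Pc ((σ ^ j) U) c = 0
      induction j with
      | zero => simpa using h0
      | succ j ih =>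
        rw [pow_succ', Equiv.Perm.mul_apply]
        exact hequiv _ c (ih ((isOfFinOrder_of_finite σ).mem_powers_iff_mem_zpowers.mp ⟨j, rfl⟩))
    have hle := finrank_le_orbits (Γ := ↥(Subgroup.zpowers σ)) Pc d hrange
      (fun c hc => Subtype.ext (by rw [(hsum c).1]; exact Finset.sum_eq_zero fun U _ => hc U)) hequivσ
    have hσp : σ ^ p = 1 := by
      have h : MulAction.toPermHom G ↥S x = σ := rfl
      rw [← h, ← map_pow, hxp, map_one]
    have horb := orbits_mul_le hp σ hσp
    have h3 : 3 * Nat.card {U : ↥S // σ U = U} ≤ Nat.card ↥S := three_fixed_le hp hp5 x hxp hgen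
    have hV : Nat.card ↥S * d ≤ Module.finrank k V := by
      let Φ : (∀ U : ↥S, ↥(U : Submodule k V)) →ₗ[k] V :=
        ∑ U : ↥S, (U : Submodule k V).subtype ∘ₗ LinearMap.proj U
      have hΦ : Function.Injective Φ := by
        rw [injective_iff_map_eq_zero]
        intro w hw
        funext U
        have := congrArg (e U : Module.End k V) hw
        simp only [Φ, LinearMap.coe_sum, Finset.sum_apply, LinearMap.comp_apply, LinearMap.proj_apply,
          Submodule.subtype_apply, map_sum, map_zero] at this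
        rw [Finset.sum_eq_single U (fun U' _ hne => he2 U U' hne _ (w U').2)
          (fun h => absurd (Finset.mem_univ U) h), he1 U _ (w U).2] at this
        exact Subtype.ext this
      have := LinearMap.finrank_le_finrank_of_injective hΦ
      simpa [Module.finrank_pi_fintype, hdim, Nat.card_eq_fintype_card] using this
    have hd0 : 0 < d := by
      rw [hd, pos_iff_ne_zero, ne_eq, Submodule.finrank_eq_zero]
      exact hP₀0
    have hn0 : 0 < Nat.card ↥S := Nat.card_pos
    set n := Nat.card ↥S
    set f := Nat.card {U : ↥S // σ U = U}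
    set o := Nat.card (orbitRel.Quotient ↥(Subgroup.zpowers σ) ↥S)
    have ho : 2 * o < n := by
      by_contra hno
      rw [not_lt] at hno
      obtain ⟨q, hq⟩ : ∃ q, p = q + 5 := ⟨p - 5, by omega⟩
      subst hq
      simp only [show q + 5 - 1 = q + 4 by omega] at horb
      nlinarith
    calc 2 * Module.finrank k ↥C ≤ 2 * (o * d) := Nat.mul_le_mul_left 2 hle
      _ = (2 * o) * d := by ring
      _ < n * d := Nat.mul_lt_mul_of_pos_right ho hd0
      _ ≤ Module.finrank k V := hV

end Cfsg.Agent.H60.HalfFix
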