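import Cfsg.Agent.H60.HalfFix.Orbits

/-! A representation in which the centre of a normal subgroup `Q` acts by scalars: orbit counting on
the endomorphism algebra bounds the fixed space of `x`. -/

set_option autoImplicit false

namespace Cfsg.Agent.H60.HalfFix

open MulAction

/-- Conjugation on `Q / Z(Q)`. -/
noncomputable def conjQuot {G : Type*} [Group G] (Q : Subgroup G) [Q.Normal] :
    G →* MulAut (↥Q ⧸ Subgroup.center ↥Q) where
  toFun g := QuotientGroup.congr _ _ (MulAut.conjNormal g)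
    (Subgroup.characteristic_iff_map_eq.mp inferInstance _)
  map_one' := by
    apply MulEquiv.ext
    intro u
    induction u using QuotientGroup.induction_on with
    | _ u => simp
  map_mul' g h := by
    apply MulEquiv.ext
    intro u
    induction u using QuotientGroup.induction_on with
    | _ u => simp; rfl

theorem conjQuot_mk {G : Type*} [Group G] (Q : Subgroup G) [Q.Normal] (g : G) (u : ↥Q) :
    conjQuot Q g (QuotientGroup.mk u) = QuotientGroup.mk (MulAut.conjNormal g u) := rfl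

/-- If the centre of the normal subgroup `Q` acts by scalars, `Q` has class at most two and the orbit
count of `x` on `Q / Z(Q)` is at most a quarter of its order, then `x` fixes less than half. -/
theorem half_of_scalar_center {K G V : Type*} [Group G] [Finite G] [Field K] [AddCommGroup V]
    [Module K V] [FiniteDimensional K V] [Nontrivial V]
    (ρ : Representation K G V) (hfaith : Function.Injective ρ)
    (Q : Subgroup G) [Q.Normal]
    (hclass : ∀ u v : ↥Q, u * v * u⁻¹ * v⁻¹ ∈ Subgroup.center ↥Q)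
    (hsc : ∀ z ∈ Subgroup.center ↥Q, ∃ c : K, ρ (z : G) = c • 1)
    {p : ℕ} (hp : p.Prime) (x : G) (hxp : x ^ p = 1) (hx1 : ρ x ≠ 1)
    (hcount : 4 * (Nat.card (↥Q ⧸ Subgroup.center ↥Q) +
        (p - 1) * Nat.card {w : ↥Q ⧸ Subgroup.center ↥Q // conjQuot Q x w = w}) ≤
      p * Nat.card (↥Q ⧸ Subgroup.center ↥Q)) :
    2 * Module.finrank K ↥(LinearMap.ker (ρ x - LinearMap.id)) < Module.finrank K V := by
  classical
  have hρinv : ∀ g : G, ρ g * ρ g⁻¹ = 1 := fun g => by rw [← map_mul, mul_inv_cancel, map_one]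
  have hρinv' : ∀ g : G, ρ g⁻¹ * ρ g = 1 := fun g => by rw [← map_mul, inv_mul_cancel, map_one]
  have hsinj : ∀ c d : K, c • (1 : Module.End K V) = d • 1 → c = d := fun c d h =>
    smul_left_injective K (one_ne_zero : (1 : Module.End K V) ≠ 0) h
  choose cs hcs using hsc
  -- the commutator pairing
  let cm : ↥Q → ↥Q → K := fun u v => cs _ (hclass u v)
  have hcm : ∀ u v : ↥Q, ρ ((u * v * u⁻¹ * v⁻¹ : ↥Q) : G) = cm u v • 1 := fun u v => hcs _ _
  have hcm0 : ∀ u v, cm u v ≠ 0 := fun u v h => by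
    have h1 := hρinv ((u * v * u⁻¹ * v⁻¹ : ↥Q) : G)
    rw [hcm, h, zero_smul, zero_mul] at h1
    exact zero_ne_one h1
  have hcentral : ∀ u v : ↥Q, ∀ w : ↥Q, w * (u * v * u⁻¹ * v⁻¹) = (u * v * u⁻¹ * v⁻¹) * w :=
    fun u v w => Subgroup.mem_center_iff.mp (hclass u v) w
  have hcm_mul_left : ∀ u₁ u₂ v, cm (u₁ * u₂) v = cm u₁ v * cm u₂ v := by
    intro u₁ u₂ v
    apply hsinj
    rw [← hcm, show u₁ * u₂ * v * (u₁ * u₂)⁻¹ * v⁻¹ = (u₁ * v * u₁⁻¹ * v⁻¹) * (u₂ * v * u₂⁻¹ * v⁻¹) by
      rw [show u₁ * u₂ * v * (u₁ * u₂)⁻¹ * v⁻¹ = u₁ * (u₂ * v * u₂⁻¹ * v⁻¹) * u₁⁻¹ * (u₁ * v * u₁⁻¹ * v⁻¹) by group,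
        hcentral u₂ v u₁, mul_inv_cancel_right, hcentral u₁ v (u₂ * v * u₂⁻¹ * v⁻¹)],
      Subgroup.coe_mul, map_mul, hcm, hcm, smul_mul_smul_comm, one_mul]
  have hcm_mul_right : ∀ u v₁ v₂, cm u (v₁ * v₂) = cm u v₁ * cm u v₂ := by
    intro u v₁ v₂
    apply hsinj
    rw [← hcm, show u * (v₁ * v₂) * u⁻¹ * (v₁ * v₂)⁻¹ = (u * v₁ * u⁻¹ * v₁⁻¹) * (u * v₂ * u⁻¹ * v₂⁻¹) by
      rw [show u * (v₁ * v₂) * u⁻¹ * (v₁ * v₂)⁻¹ = (u * v₁ * u⁻¹ * v₁⁻¹) * (v₁ * (u * v₂ * u⁻¹ * v₂⁻¹) * v₁⁻¹) by group,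
        hcentral u v₂ v₁, mul_inv_cancel_right],
      Subgroup.coe_mul, map_mul, hcm, hcm, smul_mul_smul_comm, one_mul]
  have hcm_cl : ∀ z ∈ Subgroup.center ↥Q, ∀ v, cm z v = 1 := by
    intro z hz v
    apply hsinj
    rw [← hcm, show z * v * z⁻¹ * v⁻¹ = 1 by
      rw [← Subgroup.mem_center_iff.mp hz v, mul_inv_cancel_right, mul_inv_cancel],
      OneMemClass.coe_one, map_one, one_smul]
  have hcm_cr : ∀ z ∈ Subgroup.center ↥Q, ∀ u, cm u z = 1 := by
    intro z hz u
    apply hsinj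
    rw [← hcm, show u * z * u⁻¹ * z⁻¹ = 1 by
      rw [Subgroup.mem_center_iff.mp hz u, mul_inv_cancel_right, mul_inv_cancel],
      OneMemClass.coe_one, map_one, one_smul]
  set W := ↥Q ⧸ Subgroup.center ↥Q
  haveI : Fintype W := Fintype.ofFinite W
  let χ : W → W → K := fun u v => cm u.out v.out
  have hout : ∀ u : ↥Q, ∃ z ∈ Subgroup.center ↥Q, (QuotientGroup.mk u : W).out = u * z := fun u => by
    obtain ⟨z, hz⟩ := QuotientGroup.mk_out_eq_mul (Subgroup.center ↥Q) u
    exact ⟨z, z.2, hz⟩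
  have hχmk : ∀ u v : ↥Q, χ (QuotientGroup.mk u) (QuotientGroup.mk v) = cm u v := by
    intro u v
    obtain ⟨z, hz, hzu⟩ := hout u
    obtain ⟨z', hz', hzv⟩ := hout v
    simp only [χ]
    rw [hzu, hzv, hcm_mul_left, hcm_cl z hz, mul_one, hcm_mul_right, hcm_cr z' hz', mul_one]
  have hmk : ∀ w : W, (QuotientGroup.mk w.out : W) = w := fun w => QuotientGroup.out_eq' w
  have hχ_mul_left : ∀ u₁ u₂ v, χ (u₁ * u₂) v = χ u₁ v * χ u₂ v := by
    intro u₁ u₂ v
    rw [← hmk u₁, ← hmk u₂, ← hmk v, ← QuotientGroup.mk_mul, hχmk, hχmk, hχmk, hcm_mul_left]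
  have hχ_mul_right : ∀ u v₁ v₂, χ u (v₁ * v₂) = χ u v₁ * χ u v₂ := by
    intro u v₁ v₂
    rw [← hmk u, ← hmk v₁, ← hmk v₂, ← QuotientGroup.mk_mul, hχmk, hχmk, hχmk, hcm_mul_right]
  have hχ0 : ∀ u v, χ u v ≠ 0 := fun u v => hcm0 _ _
  have hχ_one_left : ∀ v, χ 1 v = 1 := fun v =>
    mul_left_cancel₀ (hχ0 1 v) (by rw [← hχ_mul_left, one_mul, mul_one])
  have hχ_one_right : ∀ u, χ u 1 = 1 := fun u =>
    mul_left_cancel₀ (hχ0 u 1) (by rw [← hχ_mul_right, one_mul, mul_one])
  have hnd : ∀ u : W, (∀ v, χ u v = 1) → u = 1 := by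
    intro u hu
    rw [← hmk u, QuotientGroup.eq_one_iff, Subgroup.mem_center_iff]
    intro g
    have h1 := hu (QuotientGroup.mk g)
    rw [← hmk u, hχmk] at h1
    have h2 : ρ ((u.out * g * u.out⁻¹ * g⁻¹ : ↥Q) : G) = ρ 1 := by rw [hcm, h1, one_smul, map_one]
    have h3 : u.out * g * u.out⁻¹ * g⁻¹ = 1 := Subtype.ext (hfaith h2)
    exact (mul_inv_eq_iff_eq_mul.mp (mul_inv_eq_one.mp h3)).symm
  have hnd' : ∀ v : W, (∀ u, χ u v = 1) → v = 1 := by
    intro v hv
    refine hnd v fun u => ?_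
    have h1 := hv u
    rw [← hmk u, ← hmk v, hχmk] at h1 ⊢
    apply hsinj
    rw [← hcm, show v.out * u.out * v.out⁻¹ * u.out⁻¹ = (u.out * v.out * u.out⁻¹ * v.out⁻¹)⁻¹ by group,
      show (1 : K) • (1 : Module.End K V) = 1 from one_smul _ _]
    have h2 : (u.out * v.out * u.out⁻¹ * v.out⁻¹) = 1 :=
      Subtype.ext (hfaith (by rw [hcm, h1, one_smul, OneMemClass.coe_one, map_one]))
    rw [h2, inv_one, OneMemClass.coe_one, map_one]
  -- the order of `W` is invertible in `K`
  have hN : (Nat.card W : K) ≠ 0 := by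
    intro h0
    obtain ⟨c, hc⟩ := CharP.exists K
    have hdvd : c ∣ Nat.card W := (CharP.cast_eq_zero_iff K c _).mp h0
    have hcpos : c ≠ 0 := fun h => (Nat.card_pos (α := W)).ne' (zero_dvd_iff.mp (h ▸ hdvd))
    haveI hcp : Fact c.Prime := ⟨(CharP.char_is_prime_or_zero K c).resolve_right hcpos⟩
    obtain ⟨w, hw⟩ := exists_prime_orderOf_dvd_card' c hdvd
    have hw1 : w ≠ 1 := fun h => hcp.out.ne_one (by rw [← hw, h, orderOf_one])
    refine hw1 (hnd' w fun u => ?_)
    have hpow : ∀ j : ℕ, χ u (w ^ j) = χ u w ^ j := by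
      intro j
      induction j with
      | zero => rw [pow_zero, pow_zero, hχ_one_right]
      | succ j ih => rw [pow_succ, hχ_mul_right, ih, pow_succ]
    have h1 : χ u w ^ c = 1 := by rw [← hpow, ← hw, pow_orderOf_eq_one, hχ_one_right]
    have h2 : (χ u w - 1) ^ c = 0 := by rw [sub_pow_char, h1, one_pow, sub_self]
    exact sub_eq_zero.mp (pow_eq_zero_iff hcpos |>.mp h2)
  -- conjugation on endomorphisms
  let cj : G → Module.End K V →ₗ[K] Module.End K V := fun g =>
    (LinearMap.mulLeft K (ρ g)).comp (LinearMap.mulRight K (ρ g⁻¹))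
  have hcj : ∀ g e, cj g e = ρ g * e * ρ g⁻¹ := fun g e => by
    simp [cj, mul_assoc]
  have hcj_mul : ∀ g h e, cj (g * h) e = cj g (cj h e) := fun g h e => by
    simp only [hcj, map_mul, mul_inv_rev, mul_assoc]
  have hcj_center : ∀ z ∈ Subgroup.center ↥Q, ∀ e, cj (z : G) e = e := by
    intro z hz e
    rw [hcj, hcs z hz, smul_mul_assoc, one_mul, ← mul_one e, ← mul_smul_comm, mul_assoc,
      ← hcs z hz, hρinv, mul_one]
  let cW : W → Module.End K V →ₗ[K] Module.End K V := fun u => cj (u.out : G)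
  have hcWmk : ∀ u : ↥Q, ∀ e, cW (QuotientGroup.mk u) e = cj (u : G) e := by
    intro u e
    obtain ⟨z, hz, hzu⟩ := hout u
    simp only [cW]
    rw [hzu, Subgroup.coe_mul, hcj_mul, hcj_center z hz]
  have hcW_mul : ∀ u v e, cW (u * v) e = cW u (cW v e) := by
    intro u v e
    conv_lhs => rw [← hmk u, ← hmk v, ← QuotientGroup.mk_mul]
    rw [hcWmk, Subgroup.coe_mul, hcj_mul]
  have hcW_one : ∀ e, cW 1 e = e := fun e => by
    rw [← QuotientGroup.mk_one, hcWmk, OneMemClass.coe_one, hcj, map_one, inv_one, map_one, one_mul, mul_one]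
  -- eigenspaces and projections
  let L : W → Submodule K (Module.End K V) := fun w => ⨅ u : W, LinearMap.ker (cW u - χ u w • LinearMap.id)
  have hL : ∀ {w : W} {e}, e ∈ L w ↔ ∀ u, cW u e = χ u w • e := by
    intro w e; simp [L, Submodule.mem_iInf, sub_eq_zero]
  let P : W → Module.End K V →ₗ[K] Module.End K V := fun w => ∑ u : W, (χ u w)⁻¹ • cW u
  have hP : ∀ w e, P w e = ∑ u : W, (χ u w)⁻¹ • cW u e := fun w e => by
    simp [P, LinearMap.coe_sum, Finset.sum_apply]
  have hPL : ∀ w e, P w e ∈ L w := by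
    intro w e
    rw [hL]
    intro v
    rw [hP, map_sum, Finset.smul_sum]
    refine Fintype.sum_equiv (Equiv.mulLeft v) _ _ fun u => ?_
    simp only [Equiv.coe_mulLeft, map_smul, smul_smul]
    rw [hcW_mul, hχ_mul_left, mul_inv, ← mul_assoc, mul_inv_cancel₀ (hχ0 v w), one_mul]
  have hsum0 : ∀ u : W, u ≠ 1 → ∑ w : W, (χ u w)⁻¹ = 0 := by
    intro u hu
    obtain ⟨w0, hw0⟩ : ∃ w0, χ u w0 ≠ 1 := by
      by_contra h; push Not at h; exact hu (hnd u h)
    have h1 : (χ u w0)⁻¹ * ∑ w : W, (χ u w)⁻¹ = ∑ w : W, (χ u w)⁻¹ := by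
      rw [Finset.mul_sum]
      exact Fintype.sum_equiv (Equiv.mulLeft w0) _ _ fun w => by
        simp only [Equiv.coe_mulLeft]; rw [hχ_mul_right, mul_inv]
    by_contra hne
    exact hw0 (inv_eq_one.mp (mul_eq_right₀ hne |>.mp h1))
  have hsum0' : ∀ v : W, v ≠ 1 → ∑ u : W, χ u v = 0 := by
    intro v hv
    obtain ⟨u0, hu0⟩ : ∃ u0, χ u0 v ≠ 1 := by
      by_contra h; push Not at h; exact hv (hnd' v h)
    have h1 : χ u0 v * ∑ u : W, χ u v = ∑ u : W, χ u v := by
      rw [Finset.mul_sum]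
      exact Fintype.sum_equiv (Equiv.mulLeft u0) _ _ fun u => by
        simp only [Equiv.coe_mulLeft]; rw [hχ_mul_left]
    by_contra hne
    exact hu0 (mul_eq_right₀ hne |>.mp h1)
  have hPsum : ∀ e, ∑ w : W, P w e = (Nat.card W : K) • e := by
    intro e
    simp only [hP]
    rw [Finset.sum_comm, Finset.sum_eq_single (1 : W)]
    · simp only [hχ_one_left, inv_one, one_smul, hcW_one, Finset.sum_const, Finset.card_univ]
      rw [← Nat.cast_smul_eq_nsmul K, Nat.card_eq_fintype_card]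
    · intro u _ hu
      rw [← Finset.sum_smul, hsum0 u hu, zero_smul]
    · exact fun h => absurd (Finset.mem_univ _) h
  have hPeig : ∀ v w e, e ∈ L w → P v e = if v = w then (Nat.card W : K) • e else 0 := by
    intro v w e he
    rw [hP]
    simp only [hL.mp he, smul_smul]
    rw [← Finset.sum_smul]
    have hterm : ∀ u, (χ u v)⁻¹ * χ u w = χ u (v⁻¹ * w) := by
      intro u
      rw [hχ_mul_right]
      congr 1
      refine inv_eq_of_mul_eq_one_right ?_
      rw [← hχ_mul_right, mul_inv_cancel, hχ_one_right]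
    simp only [hterm]
    by_cases h : v = w
    · subst h
      simp only [inv_mul_cancel, hχ_one_right, Finset.sum_const, Finset.card_univ, if_true, nsmul_eq_mul, mul_one]
      rw [Nat.card_eq_fintype_card]
    · rw [if_neg h, hsum0' _ (fun hh => h (inv_mul_eq_one.mp hh)), zero_smul]
  have hLmul : ∀ (a : ↥Q) (v : W), ∀ e ∈ L v, ρ (a : G) * e ∈ L (QuotientGroup.mk a * v) := by
    intro a v e he
    rw [hL]
    intro u
    obtain ⟨u, rfl⟩ := QuotientGroup.mk_surjective u
    have he' : cj (u : G) e = χ (QuotientGroup.mk u) v • e := by rw [← hcWmk]; exact hL.mp he _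
    rw [hcWmk, hχ_mul_right, hχmk, hcj]
    have h1 : ρ ((u : G)) * ρ (a : G) * ρ (u : G)⁻¹ = cm u a • ρ (a : G) := by
      rw [← map_mul, ← map_mul,
        show (u : G) * a * (u : G)⁻¹ = ((u * a * u⁻¹ * a⁻¹ : ↥Q) : G) * a by simp [mul_assoc],
        map_mul, hcm, smul_mul_assoc, one_mul]
    calc ρ (u : G) * (ρ (a : G) * e) * ρ (u : G)⁻¹
        = (ρ (u : G) * ρ (a : G) * ρ (u : G)⁻¹) * (ρ (u : G) * e * ρ (u : G)⁻¹) := by
          simp only [mul_assoc]
          rw [← mul_assoc (ρ (u : G)⁻¹) (ρ (u : G)), hρinv', one_mul]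
      _ = _ := by rw [h1, ← hcj, he', smul_mul_smul_comm]
  set d := Module.finrank K ↥(L 1) with hd
  have hLd : ∀ w : W, Module.finrank K ↥(L w) = d := by
    intro w
    obtain ⟨a, rfl⟩ := QuotientGroup.mk_surjective w
    have hinj : ∀ g : G, Function.Injective (LinearMap.mulLeft K (ρ g) : Module.End K V →ₗ[K] _) := by
      intro g e e' h
      have := congrArg (ρ g⁻¹ * ·) h
      simpa [← mul_assoc, hρinv'] using this
    apply le_antisymm
    · let f : ↥(L (QuotientGroup.mk a)) →ₗ[K] ↥(L 1) :=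
        (LinearMap.mulLeft K (ρ ((a⁻¹ : ↥Q) : G))).restrict fun e he => by
          have := hLmul a⁻¹ _ e he
          rwa [QuotientGroup.mk_inv, inv_mul_cancel] at this
      exact LinearMap.finrank_le_finrank_of_injective (f := f) fun e e' h =>
        Subtype.ext (hinj _ (congrArg Subtype.val h))
    · let f : ↥(L 1) →ₗ[K] ↥(L (QuotientGroup.mk a)) :=
        (LinearMap.mulLeft K (ρ (a : G))).restrict fun e he => by
          have := hLmul a _ e he
          rwa [mul_one] at this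
      exact LinearMap.finrank_le_finrank_of_injective (f := f) fun e e' h =>
        Subtype.ext (hinj _ (congrArg Subtype.val h))
  have hND : Nat.card W * d ≤ Module.finrank K V * Module.finrank K V := by
    let Φ : (∀ w : W, ↥(L w)) →ₗ[K] Module.End K V := ∑ w : W, (L w).subtype ∘ₗ LinearMap.proj w
    have hΦ : Function.Injective Φ := by
      rw [injective_iff_map_eq_zero]
      intro f hf
      funext v
      have h := congrArg (P v) hf
      simp only [Φ, LinearMap.coe_sum, Finset.sum_apply, LinearMap.comp_apply, LinearMap.proj_apply,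
        Submodule.subtype_apply, map_sum, map_zero] at h
      rw [Finset.sum_congr rfl (fun w _ => hPeig v w _ (f w).2), Finset.sum_ite_eq, if_pos (Finset.mem_univ v)] at h
      exact Subtype.ext ((smul_eq_zero.mp h).resolve_left hN)
    have h := LinearMap.finrank_le_finrank_of_injective hΦ
    simpa [Module.finrank_pi_fintype, hLd, Nat.card_eq_fintype_card, Module.finrank_linearMap] using h
  -- the fixed endomorphisms
  set σ : Equiv.Perm W := (conjQuot Q x).toEquiv with hσ
  have hσmk : ∀ u : ↥Q, σ (QuotientGroup.mk u) = QuotientGroup.mk (MulAut.conjNormal x u) := fun u =>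
    conjQuot_mk Q x u
  have hσχ : ∀ u v, χ (σ u) (σ v) = χ u v := by
    intro u v
    rw [← hmk u, ← hmk v, hσmk, hσmk, hχmk, hχmk]
    apply hsinj
    rw [← hcm, ← map_mul, ← map_inv, ← map_mul, ← map_inv, ← map_mul, MulAut.conjNormal_apply,
      map_mul, map_mul, hcm, mul_smul_comm, mul_one, smul_mul_assoc, hρinv]
  have hσc : ∀ u e, cW (σ u) (cj x e) = cj x (cW u e) := by
    intro u e
    conv_lhs => rw [← hmk u, hσmk]
    rw [hcWmk, MulAut.conjNormal_apply, ← hcj_mul, ← hcj_mul, inv_mul_cancel_right]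
  let F : Submodule K (Module.End K V) := LinearMap.ker (cj x - LinearMap.id)
  have hF : ∀ {e}, e ∈ F ↔ cj x e = e := by intro e; simp [F, sub_eq_zero]
  have hequiv1 : ∀ (w : W) (e : ↥F), P w e = 0 → P (σ w) e = 0 := by
    intro w e h
    have h2 : P (σ w) (e : Module.End K V) = cj x (P w e) := by
      rw [hP, hP, map_sum]
      refine (Fintype.sum_equiv σ _ _ fun u => ?_).symm
      rw [map_smul, hσχ, ← hσc, hF.mp e.2]
    rw [h2, h, map_zero]
  let Pf : W → ↥F →ₗ[K] Module.End K V := fun w => (P w).comp F.subtype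
  have horb : ∀ (γ : ↥(Subgroup.zpowers σ)) (w : W) (e : ↥F), Pf w e = 0 → Pf (γ • w) e = 0 := by
    rintro ⟨γ, hγ⟩ w e h0
    obtain ⟨j, hj⟩ := (isOfFinOrder_of_finite σ).mem_powers_iff_mem_zpowers.mpr hγ
    simp only at hj
    subst hj
    show Pf ((σ ^ j) w) e = 0
    induction j with
    | zero => simpa using h0
    | succ j ih =>
      rw [pow_succ', Equiv.Perm.mul_apply]
      exact hequiv1 _ e (ih ((isOfFinOrder_of_finite σ).mem_powers_iff_mem_zpowers.mp ⟨j, rfl⟩))
  have hFle : Module.finrank K ↥F ≤ Nat.card (orbitRel.Quotient ↥(Subgroup.zpowers σ) W) * d := by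
    refine finrank_le_orbits Pf d (fun w => ?_) (fun e he => ?_) horb
    · rw [← hLd w]
      exact Submodule.finrank_mono (by rintro _ ⟨e, rfl⟩; exact hPL w _)
    · apply Subtype.ext
      have h := hPsum (e : Module.End K V)
      rw [Finset.sum_eq_zero (fun w _ => show P w (e : Module.End K V) = 0 from he w)] at h
      exact (smul_eq_zero.mp h.symm).resolve_left hN
  have hσp : σ ^ p = 1 := by
    apply Equiv.ext
    intro w
    have h : ∀ j : ℕ, (σ ^ j) w = conjQuot Q (x ^ j) w := by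
      intro j
      induction j with
      | zero => simp
      | succ j ih => rw [pow_succ', Equiv.Perm.mul_apply, ih, pow_succ', map_mul]; rfl
    rw [h, hxp, map_one]; rfl
  have horbits := orbits_mul_le hp σ hσp
  have hcount' : 4 * Nat.card (orbitRel.Quotient ↥(Subgroup.zpowers σ) W) ≤ Nat.card W := by
    have hf : Nat.card {w : W // σ w = w} = Nat.card {w : W // conjQuot Q x w = w} := rfl
    rw [hf] at horbits
    refine Nat.le_of_mul_le_mul_left ?_ hp.pos
    calc p * (4 * Nat.card (orbitRel.Quotient ↥(Subgroup.zpowers σ) W))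
        = 4 * (p * Nat.card (orbitRel.Quotient ↥(Subgroup.zpowers σ) W)) := by ring
      _ ≤ _ := (Nat.mul_le_mul_left 4 horbits).trans hcount
  -- lower bound for the fixed endomorphisms
  set C := LinearMap.ker (ρ x - LinearMap.id) with hC
  set R := LinearMap.range (ρ x - LinearMap.id) with hR
  let Φ : ((V ⧸ R) →ₗ[K] ↥C) →ₗ[K] Module.End K V :=
    (LinearMap.compRight K C.subtype).comp (LinearMap.lcomp K ↥C R.mkQ)
  have hΦapp : ∀ f v, Φ f v = (f (R.mkQ v) : V) := fun f v => rfl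
  have hΦinj : Function.Injective Φ := by
    intro f g h
    apply LinearMap.ext
    intro u
    obtain ⟨v, rfl⟩ := R.mkQ_surjective u
    exact Subtype.ext (by rw [← hΦapp, ← hΦapp, h])
  have hΦF : LinearMap.range Φ < F := by
    refine lt_of_le_of_ne ?_ ?_
    · rintro _ ⟨f, rfl⟩
      rw [hF, hcj]
      apply LinearMap.ext
      intro v
      show ρ x (Φ f (ρ x⁻¹ v)) = Φ f v
      rw [hΦapp, hΦapp]
      have h1 : R.mkQ (ρ x⁻¹ v) = R.mkQ v := by
        symm
        simp only [Submodule.mkQ_apply]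
        rw [Submodule.Quotient.eq]
        refine ⟨ρ x⁻¹ v, ?_⟩
        rw [LinearMap.sub_apply, LinearMap.id_apply, ← Module.End.mul_apply, hρinv, Module.End.one_apply]
      rw [h1]
      exact sub_eq_zero.mp (f (R.mkQ v)).2
    · intro h
      have h1 : (1 : Module.End K V) ∈ F := by rw [hF, hcj, mul_one, hρinv]
      obtain ⟨f, hf⟩ := h ▸ h1
      apply hx1
      apply LinearMap.ext
      intro v
      have h2 : (ρ x - LinearMap.id : Module.End K V) v ∈ R := ⟨v, rfl⟩
      have h3 : R.mkQ ((ρ x - LinearMap.id : Module.End K V) v) = 0 := (Submodule.Quotient.mk_eq_zero R).mpr h2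
      have h4 := LinearMap.congr_fun hf ((ρ x - LinearMap.id : Module.End K V) v)
      rw [hΦapp, h3, map_zero, ZeroMemClass.coe_zero, Module.End.one_apply] at h4
      exact sub_eq_zero.mp h4.symm
  have hdimΦ : Module.finrank K ↥(LinearMap.range Φ) =
      Module.finrank K ↥C * Module.finrank K ↥C := by
    rw [LinearMap.finrank_range_of_inj hΦinj, Module.finrank_linearMap]
    congr 1
    have h1 := Submodule.finrank_quotient_add_finrank R
    have h2 := LinearMap.finrank_range_add_finrank_ker (ρ x - LinearMap.id)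
    rw [← hR, ← hC] at h2
    omega
  have hlt := Submodule.finrank_lt_finrank_of_lt hΦF
  rw [hdimΦ] at hlt
  by_contra hno
  rw [not_lt] at hno
  set m := Module.finrank K ↥C
  set D := Module.finrank K V
  set o := Nat.card (orbitRel.Quotient ↥(Subgroup.zpowers σ) W)
  nlinarith

end Cfsg.Agent.H60.HalfFix
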