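import Cfsg.Agent.H60.HalfFix.Central
import Cfsg.Agent.H59.QdSolvable
import Cfsg.Agent.H19.Cores

/-! The normal nilpotent subgroup of class two and the orbit count of `x` on `Q / Z(Q)`. -/

set_option autoImplicit false

namespace Cfsg.Agent.H60.HalfFix

open MulAction

open scoped commutatorElement

/-- A finite nilpotent group which is the normal closure of one element is cyclic. -/
theorem zpowers_eq_top_of_nilpotent {H : Type*} [Group H] [Finite H] [Group.IsNilpotent H] (x : H)
    (hgen : Subgroup.normalClosure ({x} : Set H) = ⊤) : Subgroup.zpowers x = ⊤ := by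
  by_contra hne
  obtain ⟨M, hM, hle⟩ := (eq_top_or_exists_le_coatom (Subgroup.zpowers x)).resolve_left hne
  haveI : M.Normal := Subgroup.NormalizerCondition.normal_of_coatom M Group.normalizerCondition_of_isNilpotent hM
  exact hM.1 (top_le_iff.mp (hgen ▸ Subgroup.normalClosure_le_normal
    (Set.singleton_subset_iff.mpr (hle (Subgroup.mem_zpowers x)))))

/-- If every abelian normal subgroup is central, a nilpotent normal subgroup has class at most two. -/
theorem class_two {G : Type*} [Group G] (Q : Subgroup G) [Q.Normal] [Group.IsNilpotent ↥Q]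
    (hA : ∀ A : Subgroup G, A.Normal → (∀ a ∈ A, ∀ b ∈ A, a * b = b * a) → A ≤ Subgroup.center G) :
    ⁅(⊤ : Subgroup ↥Q), ⊤⁆ ≤ Subgroup.center ↥Q := by
  classical
  have hex := (Subgroup.nilpotent_iff_lowerCentralSeries (G := ↥Q)).mp inferInstance
  by_contra hno
  have h3 : 3 ≤ Nat.find hex := by
    by_contra hlt
    have hle : (⊤ : Subgroup ↥Q).lowerCentralSeries 2 = ⊥ :=
      le_bot_iff.mp ((Subgroup.lowerCentralSeries_antitone _ (by omega : Nat.find hex ≤ 2)).trans (Nat.find_spec hex).le)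
    have htop : Subgroup.centralizer ((⊤ : Subgroup ↥Q) : Set ↥Q) = Subgroup.center ↥Q := by
      rw [Subgroup.coe_top, Subgroup.centralizer_univ]
    exact hno ((Subgroup.commutator_eq_bot_iff_le_centralizer.mp hle).trans (le_of_eq htop))
  obtain ⟨j, hj⟩ : ∃ j, Nat.find hex = j + 3 := ⟨Nat.find hex - 3, by omega⟩
  set L := (⊤ : Subgroup ↥Q).lowerCentralSeries (j + 1) with hL
  have hbot : ⁅⁅L, (⊤ : Subgroup ↥Q)⁆, (⊤ : Subgroup ↥Q)⁆ = ⊥ := by
    have := Nat.find_spec hex
    rwa [hj] at this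
  have hLD : ⁅⁅(⊤ : Subgroup ↥Q), ⊤⁆, L⁆ = ⊥ :=
    Subgroup.commutator_commutator_eq_bot_of_rotate (by rw [Subgroup.commutator_comm ⊤ L]; exact hbot) hbot
  have hLle : L ≤ ⁅(⊤ : Subgroup ↥Q), ⊤⁆ :=
    Subgroup.lowerCentralSeries_antitone _ (by omega : 1 ≤ j + 1)
  have hLc : ∀ a ∈ L, ∀ b ∈ L, a * b = b * a := fun a ha b hb =>
    Subgroup.mem_centralizer_iff.mp (Subgroup.commutator_eq_bot_iff_le_centralizer.mp hLD (hLle hb)) a ha
  haveI : L.Characteristic := Subgroup.lowerCentralSeries_characteristic _ _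
  have hn : (L.map Q.subtype).Normal := ConjAct.normal_of_characteristic_of_normal
  have hcen := hA _ hn (by
    rintro _ ⟨a, ha, rfl⟩ _ ⟨b, hb, rfl⟩
    rw [← map_mul, ← map_mul, hLc a ha b hb])
  have hLQ : ⁅L, (⊤ : Subgroup ↥Q)⁆ = ⊥ := by
    rw [Subgroup.commutator_eq_bot_iff_le_centralizer]
    intro a ha
    rw [Subgroup.mem_centralizer_iff]
    intro b _
    exact Subtype.ext (Subgroup.mem_center_iff.mp (hcen ⟨a, ha, rfl⟩) b)
  exact Nat.find_min hex (by omega : j + 2 < Nat.find hex) hLQ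

/-- An abelian group of squarefree order is cyclic. -/
theorem isCyclic_of_squarefree_card {H : Type*} [CommGroup H] [Finite H] (h : Squarefree (Nat.card H)) :
    IsCyclic H := by
  refine IsCyclic.of_exponent_eq_card (Nat.dvd_antisymm Group.exponent_dvd_nat_card ?_)
  rw [← Nat.prod_primeFactors_of_squarefree h]
  refine Finset.prod_primes_dvd _ (fun q hq => (Nat.prime_of_mem_primeFactors hq).prime) fun q hq => ?_
  haveI : Fact q.Prime := ⟨Nat.prime_of_mem_primeFactors hq⟩
  obtain ⟨a, ha⟩ := exists_prime_orderOf_dvd_card' q (Nat.dvd_of_mem_primeFactors hq)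
  exact ha ▸ Monoid.order_dvd_exponent a

/-- The orbit count of `x` on `Q / Z(Q)`. -/
theorem count_bound {G : Type*} [Group G] [Finite G] [Group.IsSolvable G] {p : ℕ} (hp : p.Prime)
    (hp5 : 5 ≤ p) (x : G) (hxp : x ^ p = 1) (hgen : Subgroup.normalClosure ({x} : Set G) = ⊤)
    (Q : Subgroup G) [Q.Normal] [Group.IsNilpotent ↥Q]
    (hA : ∀ A : Subgroup G, A.Normal → (∀ a ∈ A, ∀ b ∈ A, a * b = b * a) → A ≤ Subgroup.center G)
    (hx : x ∉ Subgroup.centralizer (Q : Set G)) :
    4 * (Nat.card (↥Q ⧸ Subgroup.center ↥Q) +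
        (p - 1) * Nat.card {w : ↥Q ⧸ Subgroup.center ↥Q // conjQuot Q x w = w}) ≤
      p * Nat.card (↥Q ⧸ Subgroup.center ↥Q) := by
  classical
  haveI : Fact p.Prime := ⟨hp⟩
  have hcl := class_two Q hA
  set W := ↥Q ⧸ Subgroup.center ↥Q
  have hab : ∀ a b : W, a * b = b * a := by
    intro a b
    obtain ⟨a, rfl⟩ := QuotientGroup.mk_surjective a
    obtain ⟨b, rfl⟩ := QuotientGroup.mk_surjective b
    rw [← QuotientGroup.mk_mul, ← QuotientGroup.mk_mul, QuotientGroup.eq]
    have := hcl (Subgroup.commutator_mem_commutator (Subgroup.mem_top b⁻¹) (Subgroup.mem_top a⁻¹))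
    simpa [commutatorElement_def, mul_assoc] using this
  letI : CommGroup W := { (inferInstance : Group W) with mul_comm := hab }
  -- the centre of `Q` is central in `G`
  set Z : Subgroup G := (Subgroup.center ↥Q).map Q.subtype with hZ
  haveI hZn : Z.Normal := ConjAct.normal_of_characteristic_of_normal
  have hZc : Z ≤ Subgroup.center G := hA Z hZn (by
    rintro _ ⟨a, ha, rfl⟩ _ ⟨b, hb, rfl⟩
    rw [← map_mul, ← map_mul, Subgroup.mem_center_iff.mp ha b])
  set σ := conjQuot Q x with hσ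
  let D : W →* W :=
    { toFun := fun w => σ w / w
      map_one' := by simp
      map_mul' := fun a b => by rw [map_mul]; exact mul_div_mul_comm _ _ _ _ }
  have hD : ∀ w, D w = σ w / w := fun _ => rfl
  have hσD : ∀ w, σ w = w * D w := fun w => by rw [hD]; exact (mul_div_cancel w _).symm
  have hker : Nat.card {w : W // σ w = w} = Nat.card D.ker :=
    Nat.card_congr (Equiv.subtypeEquivRight fun w => by rw [MonoidHom.mem_ker, hD, div_eq_one])
  rw [hker]
  have hN : Nat.card W = Nat.card D.ker * Nat.card D.range := by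
    rw [← Subgroup.index_ker, Subgroup.card_mul_index]
  set I := D.range with hI
  set i := Nat.card ↥I with hi
  set f := Nat.card D.ker with hf
  have hfix_of : ∀ w : W, σ w = w → ∀ j : ℕ, conjQuot Q (x ^ j) w = w := by
    intro w hw j
    induction j with
    | zero => simp
    | succ j ih => rw [pow_succ, map_mul, MulAut.mul_apply, ← hσ, hw, ih]
  -- `I` is nontrivial
  have hi1 : i ≠ 1 := by
    intro h1
    have hIbot : I = ⊥ := Subgroup.card_eq_one.mp h1
    have hfx : ∀ u : ↥Q, (QuotientGroup.mk (MulAut.conjNormal x u) : W) = QuotientGroup.mk u := fun u => by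
      rw [← conjQuot_mk, ← hσ]
      have : D (QuotientGroup.mk u) ∈ I := ⟨_, rfl⟩
      rw [hIbot, Subgroup.mem_bot, hD, div_eq_one] at this
      exact this
    -- then `G` centralises `Q` modulo `Z`
    have hGfix : ∀ g : G, ∀ u : ↥Q, (QuotientGroup.mk (MulAut.conjNormal g u) : W) = QuotientGroup.mk u := by
      have hk : (conjQuot Q).ker = ⊤ := by
        rw [eq_top_iff, ← hgen]
        refine Subgroup.normalClosure_le_normal (Set.singleton_subset_iff.mpr ?_)
        rw [SetLike.mem_coe, MonoidHom.mem_ker]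
        apply MulEquiv.ext
        intro w
        obtain ⟨u, rfl⟩ := QuotientGroup.mk_surjective w
        rw [conjQuot_mk, hfx]; rfl
      intro g u
      have : conjQuot Q g = 1 := MonoidHom.mem_ker.mp (hk ▸ Subgroup.mem_top g)
      rw [← conjQuot_mk, this]; rfl
    apply hx
    rw [Subgroup.mem_centralizer_iff]
    intro a ha
    let A : Subgroup G := Z ⊔ Subgroup.zpowers a
    have hAZ : ∀ b ∈ A, ∃ z ∈ Z, ∃ j : ℤ, b = z * a ^ j := by
      intro b hb
      obtain ⟨z, hz, w, hw, rfl⟩ := Subgroup.mem_sup_of_normal_left.mp hb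
      obtain ⟨j, rfl⟩ := Subgroup.mem_zpowers_iff.mp hw
      exact ⟨z, hz, j, rfl⟩
    have hAn : A.Normal := ⟨by
        intro b hb g
        obtain ⟨z, hz, j, rfl⟩ := hAZ b hb
        rw [← conj_mul]
        refine A.mul_mem ((le_sup_left : Z ≤ A) (hZn.conj_mem z hz g)) ?_
        rw [← conj_zpow]
        refine A.zpow_mem ?_ j
        have h := (QuotientGroup.eq).mp (hGfix g ⟨a, ha⟩).symm
        have hz' : a⁻¹ * (g * a * g⁻¹) ∈ Z := ⟨_, h, by simp⟩
        have := A.mul_mem ((le_sup_right : _ ≤ A) (Subgroup.mem_zpowers a)) ((le_sup_left : Z ≤ A) hz')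
        rwa [mul_inv_cancel_left] at this⟩
    have hac : a ∈ Subgroup.center G := hA A hAn (by
      intro b hb c hc
      obtain ⟨z, hz, j, rfl⟩ := hAZ b hb
      obtain ⟨z', hz', j', rfl⟩ := hAZ c hc
      have e1 := Subgroup.mem_center_iff.mp (hZc hz)
      have e2 := Subgroup.mem_center_iff.mp (hZc hz')
      calc z * a ^ j * (z' * a ^ j') = z * z' * (a ^ j * a ^ j') := by
            rw [mul_assoc, ← mul_assoc (a ^ j), e2 (a ^ j)]; group
        _ = z' * z * (a ^ j' * a ^ j) := by rw [e2 z, ← zpow_add, add_comm, zpow_add]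
        _ = z' * a ^ j' * (z * a ^ j) := by
            rw [mul_assoc z', ← mul_assoc z, ← e1 (a ^ j')]; group) ((le_sup_right : _ ≤ A) (Subgroup.mem_zpowers a))
    exact (Subgroup.mem_center_iff.mp hac x).symm
  -- `I` is not cyclic
  have hnc : ¬ IsCyclic ↥I := by
    intro hcyc
    obtain ⟨⟨i₀, hi₀⟩, hgenI⟩ := hcyc.exists_generator
    obtain ⟨u₀, hu₀⟩ := QuotientGroup.mk_surjective i₀
    have hrep : ∀ q : ↥Q, (QuotientGroup.mk q : W) ∈ I → ∃ z ∈ Subgroup.center ↥Q, ∃ j : ℤ, q = u₀ ^ j * z := by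
      intro q hq
      obtain ⟨j, hj⟩ := Subgroup.mem_zpowers_iff.mp (hgenI ⟨_, hq⟩)
      have hj' : i₀ ^ j = (QuotientGroup.mk q : W) := by simpa using congrArg Subtype.val hj
      rw [← hu₀, ← QuotientGroup.mk_zpow, QuotientGroup.eq] at hj'
      exact ⟨(u₀ ^ j)⁻¹ * q, hj', j, by rw [mul_inv_cancel_left]⟩
    have hIc : ∀ q r : ↥Q, (QuotientGroup.mk q : W) ∈ I → (QuotientGroup.mk r : W) ∈ I → q * r = r * q := by
      intro q r hq hr
      obtain ⟨z, hz, j, rfl⟩ := hrep q hq
      obtain ⟨z', hz', j', rfl⟩ := hrep r hr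
      have e1 := Subgroup.mem_center_iff.mp hz
      have e2 := Subgroup.mem_center_iff.mp hz'
      have c1 : Commute (u₀ ^ j * z) (u₀ ^ j') :=
        Commute.mul_left (Commute.zpow_zpow (Commute.refl u₀) j j') (e1 _).symm
      exact Commute.mul_right c1 ((e2 _) : u₀ ^ j * z * z' = z' * (u₀ ^ j * z))
    have hsq : ∀ w ∈ I, σ w = w := by
      intro w hw
      obtain ⟨q, rfl⟩ := QuotientGroup.mk_surjective w
      rw [conjQuot_mk, QuotientGroup.eq, Subgroup.mem_center_iff]
      intro v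
      -- `x q x⁻¹` and `q` induce the same inner automorphism
      set v' : ↥Q := (MulAut.conjNormal x).symm v with hv'
      have hv : MulAut.conjNormal x v' = v := MulEquiv.apply_symm_apply _ v
      have hdiff : (QuotientGroup.mk (v'⁻¹ * v) : W) ∈ I := by
        refine ⟨QuotientGroup.mk v', ?_⟩
        rw [hD, hσ, conjQuot_mk, hv, div_eq_mul_inv, mul_comm, ← QuotientGroup.mk_inv, ← QuotientGroup.mk_mul]
      have hcomm := hIc q _ hw hdiff
      have hcz : ∀ g : G, ∀ a b : ↥Q,
          MulAut.conjNormal g (a * b * a⁻¹ * b⁻¹) = a * b * a⁻¹ * b⁻¹ := by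
        intro g a b
        apply Subtype.ext
        have hz : ((a * b * a⁻¹ * b⁻¹ : ↥Q) : G) ∈ Subgroup.center G :=
          hZc ⟨_, hcl (Subgroup.commutator_mem_commutator (Subgroup.mem_top a) (Subgroup.mem_top b)), rfl⟩
        rw [MulAut.conjNormal_apply, Subgroup.mem_center_iff.mp hz g, mul_inv_cancel_right]
      set q' := MulAut.conjNormal x q with hq'
      have key : q' * v * q'⁻¹ * v⁻¹ = q * v * q⁻¹ * v⁻¹ := by
        have h1 := hcz x q v'
        rw [map_mul, map_mul, map_mul, map_inv, map_inv, hv, ← hq'] at h1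
        rw [h1]
        have hv2 : v = v' * (v'⁻¹ * v) := by rw [mul_inv_cancel_left]
        conv_rhs => rw [hv2, mul_inv_rev]
        calc q * v' * q⁻¹ * v'⁻¹
            = q * v' * ((v'⁻¹ * v) * q⁻¹ * (v'⁻¹ * v)⁻¹) * v'⁻¹ := by
              have hc2 : (v'⁻¹ * v) * q⁻¹ = q⁻¹ * (v'⁻¹ * v) := (Commute.inv_left (hcomm : Commute q _)).symm
              rw [hc2, mul_inv_cancel_right]
          _ = _ := by group
      have h2 : q' * v * q'⁻¹ = q * v * q⁻¹ := mul_right_cancel key
      calc v * (q'⁻¹ * q) = q'⁻¹ * (q' * v * q'⁻¹) * q := by group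
        _ = q'⁻¹ * (q * v * q⁻¹) * q := by rw [h2]
        _ = q'⁻¹ * q * v := by group
    have hpow : ∀ (w : W) (j : ℕ), conjQuot Q (x ^ j) w = w * D w ^ j := by
      intro w j
      induction j with
      | zero => simp
      | succ j ih =>
        rw [pow_succ', map_mul, MulAut.mul_apply, ih, map_mul, map_pow, ← hσ, hsq _ ⟨w, rfl⟩, hσD,
          pow_succ']
        exact mul_assoc _ _ _
    have hIp : ∀ w ∈ I, w ^ p = 1 := by
      rintro _ ⟨w, rfl⟩
      have h := hpow w p
      rw [hxp, map_one] at h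
      exact mul_left_cancel (a := w) (by rw [← h, mul_one]; rfl)
    -- the quotient by `Z`
    let π := QuotientGroup.mk' Z
    let Qp : Subgroup G :=
      { carrier := {g | ∃ h : g ∈ Q, ∃ k : ℕ, (QuotientGroup.mk (⟨g, h⟩ : ↥Q) : W) ^ p ^ k = 1}
        one_mem' := ⟨Q.one_mem, 0, by simp; exact Subgroup.one_mem _⟩
        mul_mem' := by
          rintro a b ⟨ha, k, hka⟩ ⟨hb, l, hlb⟩
          refine ⟨Q.mul_mem ha hb, k + l, ?_⟩
          show (QuotientGroup.mk (⟨a, ha⟩ * ⟨b, hb⟩ : ↥Q) : W) ^ p ^ (k + l) = 1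
          rw [QuotientGroup.mk_mul, mul_pow]
          nth_rewrite 1 [pow_add]
          rw [pow_mul, hka, one_pow, one_mul, pow_add, mul_comm, pow_mul, hlb, one_pow]
        inv_mem' := by
          rintro a ⟨ha, k, hka⟩
          refine ⟨Q.inv_mem ha, k, ?_⟩
          show (QuotientGroup.mk (⟨a, ha⟩⁻¹ : ↥Q) : W) ^ p ^ k = 1
          rw [QuotientGroup.mk_inv, inv_pow, hka, inv_one] }
    haveI hQpn : Qp.Normal := ⟨by
      rintro a ⟨ha, k, hka⟩ g
      refine ⟨(inferInstance : Q.Normal).conj_mem a ha g, k, ?_⟩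
      show (QuotientGroup.mk (MulAut.conjNormal g ⟨a, ha⟩) : W) ^ p ^ k = 1
      rw [← conjQuot_mk, ← map_pow, hka, map_one]⟩
    haveI hVn : (Qp.map π).Normal := hQpn.map _ (QuotientGroup.mk'_surjective Z)
    have hVp : IsPGroup p ↥(Qp.map π) := by
      rintro ⟨_, a, ⟨ha, k, hka⟩, rfl⟩
      refine ⟨k, Subtype.ext ?_⟩
      rw [← QuotientGroup.mk_pow, QuotientGroup.eq_one_iff] at hka
      show (π a) ^ p ^ k = 1
      rw [← map_pow]
      exact (QuotientGroup.eq_one_iff _).mpr ⟨_, hka, rfl⟩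
    -- `I` pulled back
    let J : Subgroup G := (I.comap (QuotientGroup.mk' (Subgroup.center ↥Q))).map Q.subtype
    have hJmem : ∀ {g : G}, g ∈ J ↔ ∃ h : g ∈ Q, (QuotientGroup.mk (⟨g, h⟩ : ↥Q) : W) ∈ I := by
      intro g
      constructor
      · rintro ⟨u, hu, rfl⟩; exact ⟨u.2, hu⟩
      · rintro ⟨h, hh⟩; exact ⟨⟨g, h⟩, hh, rfl⟩
    have hJfix : ∀ g ∈ J, π x * π g = π g * π x := by
      intro g hg
      obtain ⟨h, hh⟩ := hJmem.mp hg
      have h1 := hsq _ hh
      rw [hσ, conjQuot_mk, QuotientGroup.eq] at h1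
      rw [← map_mul, ← map_mul]
      refine (QuotientGroup.eq).mpr ?_
      have h2 : ((MulAut.conjNormal x (⟨g, h⟩ : ↥Q))⁻¹ * (⟨g, h⟩ : ↥Q) : ↥Q).1 ∈ Z := ⟨_, h1, rfl⟩
      simp only [Subgroup.coe_mul, InvMemClass.coe_inv, MulAut.conjNormal_apply] at h2
      simpa [mul_assoc] using (hZn.conj_mem _ h2 x⁻¹)
    have hquad : ⁅⁅Qp.map π, Subgroup.zpowers (π x)⁆, Subgroup.zpowers (π x)⁆ = ⊥ := by
      rw [Subgroup.commutator_eq_bot_iff_le_centralizer, Subgroup.commutator_le]
      rintro _ ⟨v, ⟨hv, -⟩, rfl⟩ y hy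
      obtain ⟨j, hj⟩ := (isOfFinOrder_of_finite (π x)).mem_powers_iff_mem_zpowers.mpr hy
      simp only at hj
      subst hj
      rw [← map_pow, commutatorElement_def, ← map_inv, ← map_inv, ← map_mul, ← map_mul, ← map_mul]
      have hmem : v * x ^ j * v⁻¹ * (x ^ j)⁻¹ ∈ J := by
        refine hJmem.mpr ⟨?_, ?_⟩
        · rw [show v * x ^ j * v⁻¹ * (x ^ j)⁻¹ = v * (x ^ j * v⁻¹ * (x ^ j)⁻¹) by group]
          exact Q.mul_mem hv ((inferInstance : Q.Normal).conj_mem _ (Q.inv_mem hv) _)
        · have e : (⟨v, hv⟩ : ↥Q) * MulAut.conjNormal (x ^ j) (⟨v, hv⟩ : ↥Q)⁻¹ ∈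
              (I.comap (QuotientGroup.mk' (Subgroup.center ↥Q))) := by
            rw [Subgroup.mem_comap, QuotientGroup.mk'_apply, QuotientGroup.mk_mul, ← conjQuot_mk, hpow,
              QuotientGroup.mk_inv, mul_inv_cancel_left]
            exact I.pow_mem ⟨_, rfl⟩ j
          rw [Subgroup.mem_comap, QuotientGroup.mk'_apply] at e
          refine (iff_of_eq (congrArg (fun u : ↥Q => (QuotientGroup.mk u : W) ∈ I) (Subtype.ext ?_))).mp e
          simp only [Subgroup.coe_mul, MulAut.conjNormal_apply, InvMemClass.coe_inv]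
          group
      rw [Subgroup.mem_centralizer_iff]
      intro y hy
      obtain ⟨m, rfl⟩ := Subgroup.mem_zpowers_iff.mp hy
      exact Commute.zpow_left (hJfix _ hmem : Commute (π x) _) m
    have hst := H59.isPStableOn_of_solvable (p := p) (by omega : 5 ≤ p) (Qp.map π) hVp (π x) hquad
    set C := Subgroup.centralizer ((Qp.map π : Subgroup (G ⧸ Z)) : Set (G ⧸ Z))
    let ψ : G →* (G ⧸ Z) ⧸ C := (QuotientGroup.mk' C).comp π
    have hψ : Function.Surjective ψ := (QuotientGroup.mk'_surjective C).comp (QuotientGroup.mk'_surjective Z)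
    have hgenH : Subgroup.normalClosure ({ψ x} : Set ((G ⧸ Z) ⧸ C)) = ⊤ := by
      rw [← Set.image_singleton, ← Subgroup.map_normalClosure _ ψ hψ, hgen,
        Subgroup.map_top_of_surjective ψ hψ]
    have hcore : Cfsg.pCore p ((G ⧸ Z) ⧸ C) = ⊤ := by
      haveI := H19.pCore_normal p ((G ⧸ Z) ⧸ C)
      exact top_le_iff.mp (hgenH ▸ Subgroup.normalClosure_le_normal (Set.singleton_subset_iff.mpr hst))
    have hHp : IsPGroup p ((G ⧸ Z) ⧸ C) := by
      have h := H19.pCore_isPGroup (G := (G ⧸ Z) ⧸ C) p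
      rw [hcore] at h
      exact h.of_equiv Subgroup.topEquiv
    haveI : Group.IsNilpotent ((G ⧸ Z) ⧸ C) := hHp.isNilpotent
    have hcycH := zpowers_eq_top_of_nilpotent (ψ x) hgenH
    have hJQp : ∀ g ∈ J, g ∈ Qp := fun g hg => by
      obtain ⟨h, hh⟩ := hJmem.mp hg
      exact ⟨h, 1, by rw [pow_one]; exact hIp _ hh⟩
    have hJn : J.Normal := ⟨by
      intro a haJ g
      obtain ⟨j, hj⟩ := Subgroup.mem_zpowers_iff.mp (hcycH ▸ Subgroup.mem_top (ψ g) : ψ g ∈ Subgroup.zpowers (ψ x))
      have hgC : ((π x) ^ j)⁻¹ * π g ∈ C := by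
        refine (QuotientGroup.eq).mp ?_
        rw [QuotientGroup.mk_zpow]
        exact hj
      have h1 := Subgroup.mem_centralizer_iff.mp hgC (π a) ⟨a, hJQp a haJ, rfl⟩
      have h2 : π g * π a * (π g)⁻¹ = π a := by
        have hc : Commute ((π x) ^ j) (π a) := Commute.zpow_left (hJfix a haJ : Commute (π x) _) j
        calc π g * π a * (π g)⁻¹
            = (π x) ^ j * ((((π x) ^ j)⁻¹ * π g) * π a) * (π g)⁻¹ := by group
          _ = (π x) ^ j * (π a * (((π x) ^ j)⁻¹ * π g)) * (π g)⁻¹ := by rw [h1]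
          _ = (π x) ^ j * π a * ((π x) ^ j)⁻¹ := by group
          _ = π a := by rw [hc.eq, mul_inv_cancel_right]
      rw [← map_inv, ← map_mul, ← map_mul] at h2
      obtain ⟨z, hz, hze⟩ := (QuotientGroup.eq).mp h2.symm
      obtain ⟨haQ, haI⟩ := hJmem.mp haJ
      refine hJmem.mpr ⟨(inferInstance : Q.Normal).conj_mem a haQ g, ?_⟩
      have heq : (⟨g * a * g⁻¹, (inferInstance : Q.Normal).conj_mem a haQ g⟩ : ↥Q) = ⟨a, haQ⟩ * z := by
        apply Subtype.ext
        show g * a * g⁻¹ = a * (z : G)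
        rw [show (z : G) = a⁻¹ * (g * a * g⁻¹) from hze, mul_inv_cancel_left]
      rw [heq, QuotientGroup.mk_mul, (QuotientGroup.eq_one_iff z).mpr hz, mul_one]
      exact haI⟩
    have hJc := hA J hJn (by
      intro a ha b hb
      obtain ⟨ha', haI⟩ := hJmem.mp ha
      obtain ⟨hb', hbI⟩ := hJmem.mp hb
      exact congrArg Subtype.val (hIc ⟨a, ha'⟩ ⟨b, hb'⟩ haI hbI))
    apply hi1
    rw [hi, Subgroup.card_eq_one, Subgroup.eq_bot_iff_forall]
    intro w hw
    obtain ⟨u, rfl⟩ := QuotientGroup.mk_surjective w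
    rw [QuotientGroup.eq_one_iff, Subgroup.mem_center_iff]
    intro v
    exact Subtype.ext (Subgroup.mem_center_iff.mp (hJc (hJmem.mpr ⟨u.2, hw⟩)) v)
  -- congruence for `i`
  have hmod : ¬ p ∣ i → i % p = 1 := by
    intro hdvd
    have hIinv : ∀ w : ↥I, σ (w : W) ∈ I := by
      rintro ⟨_, w, rfl⟩
      exact ⟨σ w, by show D (σ w) = σ (D w); rw [hD, hD, map_div]⟩
    have hsig : ∀ (w : W) (j : ℕ), D w = D w → σ (D w) = D w → conjQuot Q (x ^ j) w = w * D w ^ j := by
      intro w j _ hfx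
      induction j with
      | zero => simp
      | succ j ih =>
        rw [pow_succ', map_mul, MulAut.mul_apply, ih, map_mul, map_pow, ← hσ, hfx, hσD, pow_succ']
        exact mul_assoc _ _ _
    let τ : Equiv.Perm ↥I := Equiv.ofBijective (fun w => ⟨σ (w : W), hIinv w⟩)
      (Finite.injective_iff_bijective.mp fun a b h => Subtype.ext (σ.injective (congrArg Subtype.val h)))
    have hτ : τ ^ p = 1 := by
      apply Equiv.ext
      intro w
      have h : ∀ j : ℕ, ((τ ^ j) w : W) = conjQuot Q (x ^ j) w := by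
        intro j
        induction j with
        | zero => simp
        | succ j ih =>
          rw [pow_succ', Equiv.Perm.mul_apply, pow_succ', map_mul, MulAut.mul_apply, ← ih]; rfl
      apply Subtype.ext
      rw [h, hxp, map_one]; rfl
    have hfixI : ∀ w : ↥I, τ w = w → w = 1 := by
      rintro ⟨_, w, rfl⟩ hfx
      have hfx' : σ (D w) = D w := congrArg Subtype.val hfx
      have h := hsig w p rfl hfx'
      rw [hxp, map_one] at h
      have hp1 : D w ^ p = 1 := mul_left_cancel (a := w) (by rw [← h, mul_one]; rfl)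
      have hcop : p.Coprime i := (hp.coprime_iff_not_dvd).mpr hdvd
      have h1 : orderOf (⟨D w, ⟨w, rfl⟩⟩ : ↥I) ∣ i := orderOf_dvd_natCard _
      have h2 : orderOf (⟨D w, ⟨w, rfl⟩⟩ : ↥I) ∣ p := orderOf_dvd_of_pow_eq_one (Subtype.ext hp1)
      exact orderOf_eq_one_iff.mp (Nat.dvd_one.mp (hcop ▸ Nat.dvd_gcd h2 h1))
    haveI : Fintype ↥I := Fintype.ofFinite _
    have hmodeq := Equiv.Perm.card_compl_support_modEq (p := p) (n := 1) (σ := τ) (by rw [pow_one]; exact hτ)
    have hone : τ.supportᶜ = {1} := by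
      ext w
      simp only [Finset.mem_compl, Equiv.Perm.mem_support, not_not, Finset.mem_singleton]
      exact ⟨hfixI w, fun h => h ▸ Subtype.ext (map_one σ)⟩
    rw [hone, Finset.card_singleton, ← Nat.card_eq_fintype_card] at hmodeq
    exact (Nat.one_mod_eq_one.mpr hp.ne_one) ▸ hmodeq.symm
  -- the numerical condition
  have hcyc_of : Squarefree i → False := fun h => hnc (isCyclic_of_squarefree_card h)
  have hipos : 0 < i := Nat.card_pos
  have h16 : 16 ≤ i ∨ (7 ≤ p ∧ 8 ≤ i) := by
    by_contra hno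
    rw [not_or, not_le] at hno
    by_cases hd : p ∣ i
    · obtain ⟨m, hm⟩ := hd
      by_cases hp7 : 7 ≤ p
      · have h8 : i < 8 := by omega
        have hm1 : m = 1 := by
          rcases Nat.lt_or_ge m 2 with h | h
          · rcases Nat.eq_zero_or_pos m with rfl | h'
            · omega
            · omega
          · nlinarith
        exact hcyc_of (by rw [hm, hm1, mul_one]; exact hp.squarefree)
      · obtain rfl : p = 5 := by
          rcases Nat.lt_or_ge p 6 with h | h
          · omega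
          · exfalso
            have : p = 6 := by omega
            exact absurd hp (this ▸ by decide)
        have hm3 : m ≤ 3 := by omega
        refine hcyc_of (hm ▸ ?_)
        interval_cases m
        · omega
        · exact Nat.prime_five.squarefree
        · decide +kernel
        · decide +kernel
    · have h1 := hmod hd
      have hq : p ≤ i / p * p ∨ i / p = 0 := by
        rcases Nat.eq_zero_or_pos (i / p) with h | h
        · exact Or.inr h
        · exact Or.inl (Nat.le_mul_of_pos_left p h)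
      have hdm := Nat.div_add_mod i p
      rcases hq with h | h
      · by_cases hp7 : 7 ≤ p
        · rw [mul_comm] at hdm; omega
        · obtain rfl : p = 5 := by
            rcases Nat.lt_or_ge p 6 with h | h
            · omega
            · exfalso
              have : p = 6 := by omega
              exact absurd hp (this ▸ by decide)
          have : i = 6 ∨ i = 11 := by omega
          rcases this with h | h <;> refine hcyc_of (h ▸ ?_) <;> decide +kernel
      · rw [h, mul_zero] at hdm; omega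
  obtain ⟨q, rfl⟩ : ∃ q, p = q + 5 := ⟨p - 5, by omega⟩
  rw [hN, show q + 5 - 1 = q + 4 by omega]
  rcases h16 with h | ⟨h7, h8⟩
  · nlinarith [Nat.mul_le_mul_left ((q + 1) * f) h, Nat.zero_le (q * f)]
  · obtain ⟨r, rfl⟩ : ∃ r, q = r + 2 := ⟨q - 2, by omega⟩
    nlinarith [Nat.mul_le_mul_left ((r + 3) * f) h8, Nat.zero_le (r * f)]

end Cfsg.Agent.H60.HalfFix
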