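import Cfsg.Agent.H60.HalfFix.Blocks
import Cfsg.Agent.H60.HalfFix.Structure
import Cfsg.Agent.H19.Fitting

/-! A faithful irreducible module of a solvable group generated by the conjugates of a subgroup of
prime order at least five: that subgroup fixes less than half (S3818). -/

set_option autoImplicit false

namespace Cfsg.Agent.H60.HalfFix

open scoped commutatorElement

theorem fixed_lt_half {G : Type*} [Group G] [Finite G] [Group.IsSolvable G] {p : ℕ} [Fact p.Prime]
    (hp : 3 < p) (P : Subgroup G) (hP : Nat.card P = p)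
    (hgenP : Subgroup.normalClosure (P : Set G) = ⊤)
    {k V : Type*} [Field k] [AddCommGroup V] [Module k V] [FiniteDimensional k V]
    (ρ : Representation k G V) [ρ.IsIrreducible] (hfaith : Function.Injective ρ) :
    2 * Module.finrank k ↥(⨅ g : ↥P, LinearMap.ker (ρ (g : G) - LinearMap.id)) < Module.finrank k V := by
  classical
  have hp' : p.Prime := Fact.out
  have hp5 : 5 ≤ p := by
    rcases Nat.lt_or_ge p 5 with h | h
    · have : p = 4 := by omega
      exact absurd hp' (this ▸ by decide)
    · exact h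
  haveI hVnt : Nontrivial V := by
    by_contra h
    rw [not_nontrivial_iff_subsingleton] at h
    exact bot_ne_top (α := Subrepresentation ρ) (Subrepresentation.toSubmodule_injective
      (Subsingleton.elim _ _))
  obtain ⟨⟨x, hxP⟩, hxgen⟩ := (isCyclic_of_prime_card hP).exists_generator
  have hxp : x ^ p = 1 := by
    have h : (⟨x, hxP⟩ : ↥P) ^ Nat.card ↥P = 1 := pow_card_eq_one'
    rw [hP] at h
    exact congrArg Subtype.val h
  have hPz : ∀ g ∈ P, ∃ j : ℤ, g = x ^ j := fun g hg => by
    obtain ⟨j, hj⟩ := Subgroup.mem_zpowers_iff.mp (hxgen ⟨g, hg⟩)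
    exact ⟨j, by simpa using (congrArg Subtype.val hj).symm⟩
  have hgen : Subgroup.normalClosure ({x} : Set G) = ⊤ := by
    rw [eq_top_iff, ← hgenP]
    refine Subgroup.normalClosure_le_normal fun g hg => ?_
    obtain ⟨j, rfl⟩ := hPz g hg
    exact Subgroup.zpow_mem _ (Subgroup.subset_normalClosure (Set.mem_singleton x)) j
  have hx1 : x ≠ 1 := by
    intro h
    have : Nat.card ↥P = 1 := Subgroup.card_eq_one.mpr ((Subgroup.eq_bot_iff_forall P).mpr fun g hg => by
      obtain ⟨j, rfl⟩ := hPz g hg
      rw [h, one_zpow])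
    exact hp'.ne_one (hP.symm.trans this)
  have hker : (⨅ g : ↥P, LinearMap.ker (ρ (g : G) - LinearMap.id)) = LinearMap.ker (ρ x - LinearMap.id) := by
    refine le_antisymm (iInf_le (fun g : ↥P => LinearMap.ker (ρ (g : G) - LinearMap.id)) ⟨x, hxP⟩)
      (le_iInf fun g => ?_)
    intro v hv
    let St : Subgroup G :=
      { carrier := {g | ρ g v = v}
        one_mem' := by simp
        mul_mem' := fun {a b} ha hb => by
          show ρ (a * b) v = v
          rw [map_mul, Module.End.mul_apply, show ρ b v = v from hb]; exact ha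
        inv_mem' := fun {a} ha => by
          show ρ a⁻¹ v = v
          calc ρ a⁻¹ v = ρ a⁻¹ (ρ a v) := by rw [show ρ a v = v from ha]
            _ = v := by rw [← Module.End.mul_apply, ← map_mul, inv_mul_cancel, map_one, Module.End.one_apply] }
    have hxS : x ∈ St := sub_eq_zero.mp hv
    obtain ⟨j, hj⟩ := hPz g g.2
    exact sub_eq_zero.mpr (show (g : G) ∈ St from hj ▸ St.zpow_mem hxS j)
  rw [hker]
  have hρx : ρ x ≠ 1 := fun h => hx1 (hfaith (h.trans ρ.map_one.symm))
  by_cases hAb : ∃ A : Subgroup G, A.Normal ∧ (∀ a ∈ A, ∀ b ∈ A, a * b = b * a) ∧ ¬ A ≤ Subgroup.center G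
  · obtain ⟨A, hAn, hAc, hA⟩ := hAb
    haveI := hAn
    exact half_of_abelian_normal ρ hfaith hp' hp5 x hxp hgen A hAc hA
  push Not at hAb
  haveI : (Cfsg.fittingSubgroup G).Normal := H19.fitting_normal G
  haveI : Group.IsNilpotent ↥(Cfsg.fittingSubgroup G) := H19.fitting_isNilpotent
  set Q := Cfsg.fittingSubgroup G with hQ
  by_cases hxQ : x ∈ Subgroup.centralizer (Q : Set G)
  · -- then the group is cyclic
    have htop : Q = ⊤ := top_le_iff.mp (hgen ▸ Subgroup.normalClosure_le_normal
      (Set.singleton_subset_iff.mpr (H19.centralizer_fitting_le hxQ)))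
    haveI hnil : Group.IsNilpotent G := by
      have e : ↥Q ≃* G := (MulEquiv.subgroupCongr htop).trans Subgroup.topEquiv
      exact Group.nilpotent_of_mulEquiv e
    have hcyc := zpowers_eq_top_of_nilpotent x hgen
    set C := LinearMap.ker (ρ x - LinearMap.id) with hC
    have hinv : ∀ g : G, ∀ v ∈ C, ρ g v ∈ C := by
      intro g v hv
      obtain ⟨j, rfl⟩ := Subgroup.mem_zpowers_iff.mp (hcyc ▸ Subgroup.mem_top g : g ∈ Subgroup.zpowers x)
      have hv' : ρ x v = v := sub_eq_zero.mp hv
      refine sub_eq_zero.mpr ?_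
      show ρ x (ρ (x ^ j) v) = ρ (x ^ j) v
      rw [← Module.End.mul_apply, ← map_mul, ← zpow_one_add, add_comm, zpow_add_one, map_mul,
        Module.End.mul_apply, hv']
    rcases eq_bot_or_top ρ C hinv with h | h
    · rw [h, finrank_bot]; exact Module.finrank_pos
    · exact absurd (LinearMap.ext fun v => sub_eq_zero.mp (h.symm ▸ Submodule.mem_top : v ∈ C)) hρx
  -- the centre of `Q` acts by scalars of a field `K`
  set K : Subalgebra k (Module.End k V) := Algebra.adjoin k (ρ '' (Subgroup.center G : Set G)) with hK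
  haveI hKc : IsMulCommutative ↥K := Algebra.isMulCommutative_adjoin k (by
    rintro _ ⟨a, ha, rfl⟩ _ ⟨b, hb, rfl⟩
    rw [← map_mul, ← map_mul, Subgroup.mem_center_iff.mp hb a])
  letI instCR : CommRing ↥K := { (inferInstance : Ring ↥K) with mul_comm := hKc.is_comm.comm }
  have hcommG : ∀ r ∈ K, ∀ g : G, ρ g * r = r * ρ g := by
    intro r hr g
    induction hr using Algebra.adjoin_induction with
    | mem y hy => obtain ⟨a, ha, rfl⟩ := hy; rw [← map_mul, ← map_mul, Subgroup.mem_center_iff.mp ha g]
    | algebraMap c => exact (Algebra.commutes c _).symm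
    | add y z _ _ hy hz => rw [mul_add, add_mul, hy, hz]
    | mul y z _ _ hy hz => rw [← mul_assoc, hy, mul_assoc, hz, mul_assoc]
  have hinjK : ∀ r : ↥K, r ≠ 0 → Function.Injective (r : Module.End k V) := by
    intro r hr
    rcases eq_bot_or_top ρ (LinearMap.ker (r : Module.End k V)) (fun g v hv => by
      have h := LinearMap.congr_fun (hcommG r r.2 g) v
      simp only [Module.End.mul_apply] at h
      rw [LinearMap.mem_ker, ← h, LinearMap.mem_ker.mp hv, map_zero]) with h | h
    · exact LinearMap.ker_eq_bot.mp h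
    · exact absurd (Subtype.ext (LinearMap.ker_eq_top.mp h)) hr
  haveI : IsArtinianRing ↥K := IsArtinianRing.of_finite k ↥K
  haveI : Nontrivial ↥K := ⟨⟨0, 1, fun h => zero_ne_one (congrArg Subtype.val h)⟩⟩
  haveI : NoZeroDivisors ↥K := ⟨fun {r s} hrs => by
    by_contra hno
    rw [not_or] at hno
    refine hno.2 (Subtype.ext (LinearMap.ext fun v => hinjK r hno.1 ?_))
    rw [← Module.End.mul_apply, ← MulMemClass.coe_mul, hrs]
    simp⟩
  haveI : IsDomain ↥K := NoZeroDivisors.to_isDomain _
  letI instF : Field ↥K := (IsArtinianRing.isField_of_isDomain (R := ↥K)).toField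
  haveI : FiniteDimensional ↥K V := Module.Finite.of_restrictScalars_finite k ↥K V
  let ρK : Representation ↥K G V :=
    { toFun := fun g =>
        { toFun := ρ g
          map_add' := map_add _
          map_smul' := fun r v => LinearMap.congr_fun (hcommG r r.2 g) v }
      map_one' := by ext v; simp
      map_mul' := fun g h => by ext v; simp }
  have hρK : ∀ g v, ρK g v = ρ g v := fun _ _ => rfl
  have hA' : ∀ A : Subgroup G, A.Normal → (∀ a ∈ A, ∀ b ∈ A, a * b = b * a) → A ≤ Subgroup.center G :=
    fun A hAn hAc => hAb A hAn hAc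
  have hlt := half_of_scalar_center ρK (fun a b h => hfaith (LinearMap.ext fun v => by
      rw [← hρK, ← hρK, h])) Q
    (fun u v => class_two Q hA' (Subgroup.commutator_mem_commutator (Subgroup.mem_top u) (Subgroup.mem_top v)))
    (fun z hz => by
      haveI : ((Subgroup.center ↥Q).map Q.subtype).Normal := ConjAct.normal_of_characteristic_of_normal
      have hzc : (z : G) ∈ Subgroup.center G := hA' ((Subgroup.center ↥Q).map Q.subtype) inferInstance (by
        rintro _ ⟨a, ha, rfl⟩ _ ⟨b, hb, rfl⟩
        rw [← map_mul, ← map_mul, Subgroup.mem_center_iff.mp hb a]) ⟨z, hz, rfl⟩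
      exact ⟨⟨ρ (z : G), Algebra.subset_adjoin ⟨_, hzc, rfl⟩⟩, LinearMap.ext fun v => rfl⟩)
    hp' x hxp (fun h => hρx (LinearMap.ext fun v => by rw [← hρK, h]; rfl))
    (count_bound hp' hp5 x hxp hgen Q hA' hxQ)
  set CK := LinearMap.ker (ρK x - LinearMap.id) with hCK
  have hCeq : CK.restrictScalars k = LinearMap.ker (ρ x - LinearMap.id) := by
    ext v
    simp [hCK, hρK]
  rw [← hCeq, ← Module.finrank_mul_finrank k ↥K V,
    show Module.finrank k ↥(CK.restrictScalars k) = Module.finrank k ↥CK from
      ((Submodule.restrictScalarsEquiv k ↥K V CK).restrictScalars k).finrank_eq,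
    ← Module.finrank_mul_finrank k ↥K ↥CK, ← mul_assoc, mul_comm 2, mul_assoc]
  exact Nat.mul_lt_mul_of_pos_left hlt Module.finrank_pos

end Cfsg.Agent.H60.HalfFix
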