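import Cfsg.Agent.H60.HalfFix.Main
import Cfsg.Agent.H20.Hall
import Cfsg.Agent.H19.Cores
import Cfsg.Agent.H24.PGroupBasic

/-! A maximal solvable subgroup generated by two conjugates of a subgroup of order `p > 3`
normalising a nilpotent subgroup `V`: `F(A) V` is nilpotent (S3822). -/

set_option autoImplicit false

namespace Cfsg.Agent.H60.HalfFix

open scoped commutatorElement Pointwise

variable {G : Type*} [Group G]

theorem coprime_centralizing {q r : ℕ} [Fact q.Prime] [Fact r.Prime] (hqr : q ≠ r) {x v c : G}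
    (hx : ∃ i : ℕ, x ^ r ^ i = 1) (hc : ∃ j : ℕ, c ^ q ^ j = 1) (hxv : x * v * x⁻¹ = c * v)
    (hxc : x * c = c * x) : x * v = v * x := by
  obtain ⟨i, hi⟩ := hx
  obtain ⟨j, hj⟩ := hc
  have h : ∀ n : ℕ, x ^ n * v * (x ^ n)⁻¹ = c ^ n * v := by
    intro n
    induction n with
    | zero => simp
    | succ n ih =>
      have hcn : Commute x (c ^ n) := Commute.pow_right (hxc : Commute x c) n
      rw [pow_succ', mul_inv_rev, show x * x ^ n * v * ((x ^ n)⁻¹ * x⁻¹) = x * (x ^ n * v * (x ^ n)⁻¹) * x⁻¹ by group,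
        ih, ← mul_assoc x, hcn.eq, mul_assoc (c ^ n) x, mul_assoc (c ^ n) (x * v), hxv, ← mul_assoc, pow_succ]
  have h1 := h (r ^ i)
  rw [hi, one_mul, inv_one, mul_one, right_eq_mul] at h1
  have hd1 : orderOf c ∣ r ^ i := orderOf_dvd_of_pow_eq_one h1
  have hd2 : orderOf c ∣ q ^ j := orderOf_dvd_of_pow_eq_one hj
  have hcop : (q ^ j).Coprime (r ^ i) :=
    ((Nat.coprime_primes Fact.out Fact.out).mpr hqr).pow _ _
  have hc1 : c = 1 := orderOf_eq_one_iff.mp (Nat.dvd_one.mp (hcop ▸ Nat.dvd_gcd hd2 hd1))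
  rw [hc1, one_mul] at hxv
  exact mul_inv_eq_iff_eq_mul.mp hxv

theorem pow_isPGroup_mem {q : ℕ} {V : Subgroup G} (hV : IsPGroup q V) {v : G} (hv : v ∈ V) :
    ∃ j : ℕ, v ^ q ^ j = 1 := by
  obtain ⟨j, hj⟩ := hV ⟨v, hv⟩
  exact ⟨j, by simpa using congrArg Subtype.val hj⟩

theorem inf_eq_bot_of_pgroups {q r : ℕ} [Fact q.Prime] [Fact r.Prime] (hqr : q ≠ r) {R V : Subgroup G}
    (hR : IsPGroup r R) (hV : IsPGroup q V) {g : G} (hgR : g ∈ R) (hgV : g ∈ V) : g = 1 := by
  obtain ⟨i, hi⟩ := pow_isPGroup_mem hR hgR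
  obtain ⟨j, hj⟩ := pow_isPGroup_mem hV hgV
  have hd1 : orderOf g ∣ r ^ i := orderOf_dvd_of_pow_eq_one hi
  have hd2 : orderOf g ∣ q ^ j := orderOf_dvd_of_pow_eq_one hj
  have hcop : (q ^ j).Coprime (r ^ i) :=
    ((Nat.coprime_primes Fact.out Fact.out).mpr hqr).pow _ _
  exact orderOf_eq_one_iff.mp (Nat.dvd_one.mp (hcop ▸ Nat.dvd_gcd hd2 hd1))

/-- A faithful-on-the-quotient irreducible module cannot be the sum of `C(z)` and its translate. -/
theorem false_of_cover {A M F : Type*} [Group A] [Finite A] [Group.IsSolvable A] [Field F]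
    [AddCommGroup M] [Module F M] [FiniteDimensional F M] [Nontrivial M] {p : ℕ} [Fact p.Prime] (hp : 3 < p)
    (ρ₀ : A →* Module.End F M)
    (hirr : ∀ S : Submodule F M, (∀ g, ∀ s ∈ S, ρ₀ g s ∈ S) → S = ⊥ ∨ S = ⊤)
    (z a : A) (hzp : z ^ p = 1) (hnc : Subgroup.normalClosure ({z} : Set A) = ⊤)
    (hnt : ¬ ∀ g, ρ₀ g = 1)
    (hcover : ∀ s : M, ∃ c₁ c₂ : M, ρ₀ z c₁ = c₁ ∧ ρ₀ z c₂ = c₂ ∧ s = c₁ + ρ₀ a c₂) : False := by
  classical
  haveI : ρ₀.ker.Normal := MonoidHom.normal_ker ρ₀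
  let π := QuotientGroup.mk' ρ₀.ker
  let ρ : Representation F (A ⧸ ρ₀.ker) M := QuotientGroup.lift ρ₀.ker ρ₀ le_rfl
  have hρπ : ∀ g, ρ (π g) = ρ₀ g := fun g => rfl
  have hinj : Function.Injective ρ := by
    intro g h hgh
    obtain ⟨g, rfl⟩ := QuotientGroup.mk_surjective g
    obtain ⟨h, rfl⟩ := QuotientGroup.mk_surjective h
    rw [QuotientGroup.eq, MonoidHom.mem_ker, map_mul]
    have h' : ρ₀ g = ρ₀ h := hgh
    rw [← h', ← map_mul, inv_mul_cancel, map_one]
  haveI : Nontrivial (Subrepresentation ρ) := ⟨⟨⊥, fun _ v hv => by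
      rw [Submodule.mem_bot] at hv ⊢; rw [hv, map_zero]⟩,
    ⟨⊤, fun _ _ _ => trivial⟩, fun h => bot_ne_top (congrArg Subrepresentation.toSubmodule h)⟩
  haveI : ρ.IsIrreducible := ⟨fun S => by
    rcases hirr S.toSubmodule (fun g s hs => S.apply_mem_toSubmodule (π g) hs) with h | h
    · exact Or.inl (Subrepresentation.toSubmodule_injective h)
    · exact Or.inr (Subrepresentation.toSubmodule_injective h)⟩
  have hgenQ : Subgroup.normalClosure ({π z} : Set (A ⧸ ρ₀.ker)) = ⊤ := by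
    rw [← Set.image_singleton, ← Subgroup.map_normalClosure _ π (QuotientGroup.mk'_surjective _), hnc,
      Subgroup.map_top_of_surjective π (QuotientGroup.mk'_surjective _)]
  have hord : orderOf (π z) = p := by
    refine orderOf_eq_prime (by rw [← map_pow, hzp, map_one]) fun h => hnt fun g => ?_
    have hker : ρ₀.ker = ⊤ := by
      rw [eq_top_iff, ← hnc]
      exact Subgroup.normalClosure_le_normal (Set.singleton_subset_iff.mpr ((QuotientGroup.eq_one_iff _).mp h))
    exact MonoidHom.mem_ker.mp (hker ▸ Subgroup.mem_top g)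
  have hlt := fixed_lt_half hp (Subgroup.zpowers (π z)) (by rw [Nat.card_zpowers, hord])
    (by
      rw [eq_top_iff, ← hgenQ]
      exact Subgroup.normalClosure_mono (Set.singleton_subset_iff.mpr (Subgroup.mem_zpowers _))) ρ hinj
  set C := ⨅ g : ↥(Subgroup.zpowers (π z)), LinearMap.ker (ρ (g : A ⧸ ρ₀.ker) - LinearMap.id)
  have hC : ∀ v, ρ₀ z v = v → v ∈ C := by
    intro v hv
    rw [Submodule.mem_iInf]
    rintro ⟨g, hg⟩
    obtain ⟨j, rfl⟩ := (isOfFinOrder_of_finite (π z)).mem_powers_iff_mem_zpowers.mpr hg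
    rw [LinearMap.mem_ker, LinearMap.sub_apply, sub_eq_zero, LinearMap.id_apply]
    show ρ ((π z) ^ j) v = v
    rw [← map_pow π z j, hρπ, map_pow, Module.End.pow_apply]
    exact Function.IsFixedPt.iterate hv j
  have htop : C ⊔ C.map (ρ₀ a) = ⊤ := by
    rw [eq_top_iff]
    intro s _
    obtain ⟨c₁, c₂, h₁, h₂, rfl⟩ := hcover s
    exact Submodule.add_mem_sup (hC _ h₁) ⟨c₂, hC _ h₂, rfl⟩
  have h1 := Submodule.finrank_add_le_finrank_add_finrank C (C.map (ρ₀ a))
  rw [htop, finrank_top] at h1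
  have h2 := Submodule.finrank_map_le (ρ₀ a) C
  omega

set_option maxHeartbeats 2000000 in
/-- A normal `r`-subgroup of such a maximal `A` centralises every `q`-subgroup normalised by `A`. -/
theorem centralize_of_maximal [Finite G] {p : ℕ} [Fact p.Prime] (hp : 3 < p) (P A : Subgroup G)
    (hP : Nat.card P = p) (hsol : Group.IsSolvable ↥A) (a : G) (ha : a ∈ A)
    (hAeq : A = P ⊔ P.map (MulAut.conj a).toMonoidHom)
    (hmax : ∀ B : Subgroup G, A ≤ B → Group.IsSolvable ↥B →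
      (∃ b ∈ B, B = P ⊔ P.map (MulAut.conj b).toMonoidHom) → B = A)
    {q r : ℕ} [Fact q.Prime] [Fact r.Prime] (hqr : q ≠ r) (R : Subgroup G) (hRA : R ≤ A)
    (hAR : A ≤ Subgroup.normalizer (R : Set G)) (hR : IsPGroup r R) :
    ∀ V : Subgroup G, IsPGroup q V → A ≤ Subgroup.normalizer (V : Set G) →
      R ≤ Subgroup.centralizer (V : Set G) := by
  classical
  intro V
  induction hn : Nat.card V using Nat.strong_induction_on generalizing V with
  | h n ih =>
  intro hV hAV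
  by_contra hnot
  have ih' : ∀ U : Subgroup G, U ≤ V → U ≠ V → A ≤ Subgroup.normalizer (U : Set G) →
      R ≤ Subgroup.centralizer (U : Set G) := fun U hU hne hAU => by
    refine ih (Nat.card U) ?_ U rfl (hV.to_le hU) hAU
    rw [← hn]
    exact lt_of_le_of_ne (Subgroup.card_le_of_le hU) fun h => hne (Subgroup.eq_of_le_of_card_ge hU h.ge)
  have hconjV : ∀ g ∈ A, ∀ v ∈ V, g * v * g⁻¹ ∈ V := fun g hg v hv =>
    (Subgroup.mem_normalizer_iff.mp (hAV hg) v).mp hv
  have hRV1 : ∀ g, g ∈ R → g ∈ V → g = 1 := fun g => inf_eq_bot_of_pgroups hqr hR hV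
  have hVA : ∀ x ∈ R, ∀ v ∈ V, v ∈ A → x * v = v * x := by
    intro x hx v hv hvA
    have h : x * v * x⁻¹ * v⁻¹ = 1 := by
      refine hRV1 _ ?_ (V.mul_mem (hconjV x (hRA hx) v hv) (V.inv_mem hv))
      have h2 := (Subgroup.mem_normalizer_iff.mp (hAR hvA) x⁻¹).mp (R.inv_mem hx)
      have := R.mul_mem hx h2
      simpa [mul_assoc] using this
    exact mul_inv_eq_iff_eq_mul.mp (mul_inv_eq_one.mp h)
  have hVnA : ¬ V ≤ A := fun h => hnot fun x hx => Subgroup.mem_centralizer_iff.mpr fun v hv =>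
    (hVA x hx v hv (h hv)).symm
  have hVbot : V ≠ ⊥ := fun h => hVnA (h ▸ bot_le)
  -- the maximal invariant subgroup with elementary quotient
  set Φ : Subgroup G := (frattini ↥V).map V.subtype with hΦ
  have hΦV : Φ ≤ V := Subgroup.map_subtype_le _
  have hΦne : Φ ≠ V := by
    intro h
    have h1 : frattini ↥V = ⊤ :=
      Subgroup.map_injective V.subtype_injective (h.trans (by rw [← MonoidHom.range_eq_map, Subgroup.range_subtype]))
    haveI : Nontrivial ↥V := V.nontrivial_iff_ne_bot.mpr hVbot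
    obtain ⟨M, hM, -⟩ := (eq_top_or_exists_le_coatom (⊥ : Subgroup ↥V)).resolve_left bot_ne_top
    exact hM.1 (top_le_iff.mp (h1 ▸ frattini_le_coatom hM))
  haveI : (frattini ↥V).Characteristic := inferInstance
  have hAΦ : A ≤ Subgroup.normalizer (Φ : Set G) := H20.le_normalizer_map_characteristic hAV _
  let fam : Set (Subgroup G) := {U | Φ ≤ U ∧ U ≤ V ∧ U ≠ V ∧ A ≤ Subgroup.normalizer (U : Set G)}
  obtain ⟨U, hUfam, hUmax⟩ := Set.Finite.exists_maximalFor id fam (Set.toFinite _) ⟨Φ, le_rfl, hΦV, hΦne, hAΦ⟩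
  obtain ⟨hΦU, hUV, hUne, hAU⟩ := hUfam
  have hUtop : ∀ U' : Subgroup G, U ≤ U' → U' ≤ V → A ≤ Subgroup.normalizer (U' : Set G) → U' = U ∨ U' = V := by
    intro U' h1 h2 h3
    by_cases h : U' = V
    · exact Or.inr h
    · exact Or.inl (le_antisymm (hUmax ⟨hΦU.trans h1, h2, h, h3⟩ h1) h1)
  have hcommU : ∀ v ∈ V, ∀ w ∈ V, v * w * v⁻¹ * w⁻¹ ∈ U := by
    intro v hv w hw
    exact hΦU ⟨⟨v, hv⟩ * ⟨w, hw⟩ * ⟨v, hv⟩⁻¹ * ⟨w, hw⟩⁻¹,
      H24.commutator_le_frattini hV (Subgroup.commutator_mem_commutator (Subgroup.mem_top _) (Subgroup.mem_top _)), rfl⟩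
  have hpowU : ∀ v ∈ V, v ^ q ∈ U := fun v hv =>
    hΦU ⟨(⟨v, hv⟩ : ↥V) ^ q, H24.pow_mem_frattini hV _, rfl⟩
  have hVU : V ≤ Subgroup.normalizer (U : Set G) := by
    rw [Subgroup.le_normalizer_iff]
    intro v hv u hu
    have := U.mul_mem (hcommU v hv u (hUV hu)) hu
    rwa [inv_mul_cancel_right] at this
  have hRU := ih' U hUV hUne hAU
  have hRUc : ∀ x ∈ R, ∀ u ∈ U, x * u = u * x := fun x hx u hu =>
    (Subgroup.mem_centralizer_iff.mp (hRU hx) u hu).symm
  -- `V = [R, V]`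
  have hRVV : ⁅R, V⁆ ≤ V := by
    rw [Subgroup.commutator_le]
    intro x hx v hv
    rw [commutatorElement_def]
    exact V.mul_mem (hconjV x (hRA hx) v hv) (V.inv_mem hv)
  have hcop' : ∀ (U' : Subgroup G), U' ≤ V → (∀ x ∈ R, ∀ u ∈ U', x * u = u * x) →
      (∀ x ∈ R, ∀ v ∈ V, x * v * x⁻¹ * v⁻¹ ∈ U') → False := by
    intro U' hU' hcen hmem
    apply hnot
    intro x hx
    rw [Subgroup.mem_centralizer_iff]
    intro v hv
    exact (coprime_centralizing hqr (pow_isPGroup_mem hR hx) (pow_isPGroup_mem hV (hU' (hmem x hx v hv)))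
      (inv_mul_cancel_right _ _).symm (hcen x hx _ (hmem x hx v hv))).symm
  have hRVeq : ⁅R, V⁆ = V := by
    by_contra hne
    have hAn : A ≤ Subgroup.normalizer ((⁅R, V⁆ : Subgroup G) : Set G) :=
      by
        rw [Subgroup.le_normalizer_iff]
        intro g hg c hc
        have hle : ⁅R, V⁆ ≤ (⁅R, V⁆ : Subgroup G).comap (MulAut.conj g).toMonoidHom := by
          rw [Subgroup.commutator_le]
          intro x hx v hv
          rw [Subgroup.mem_comap, map_commutatorElement]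
          exact Subgroup.commutator_mem_commutator ((Subgroup.mem_normalizer_iff.mp (hAR hg) x).mp hx)
            ((Subgroup.mem_normalizer_iff.mp (hAV hg) v).mp hv)
        exact hle hc
    have h := ih' _ hRVV hne hAn
    refine hcop' _ hRVV (fun x hx u hu => (Subgroup.mem_centralizer_iff.mp (h hx) u hu).symm) fun x hx v hv => ?_
    rw [← commutatorElement_def]
    exact Subgroup.commutator_mem_commutator hx hv
  -- `U` is central in `V`
  have hUc : ∀ u ∈ U, ∀ v ∈ V, u * v = v * u := by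
    have h1 : ⁅⁅V, U⁆, R⁆ = ⊥ := by
      rw [Subgroup.commutator_eq_bot_iff_le_centralizer, Subgroup.commutator_le]
      intro v hv u hu
      rw [Subgroup.mem_centralizer_iff]
      intro x hx
      refine hRUc x hx _ ?_
      rw [commutatorElement_def]
      exact U.mul_mem ((Subgroup.mem_normalizer_iff.mp (hVU hv) u).mp hu) (U.inv_mem hu)
    have h2 : ⁅⁅U, R⁆, V⁆ = ⊥ := by
      rw [Subgroup.commutator_eq_bot_iff_le_centralizer.mpr fun u hu => Subgroup.mem_centralizer_iff.mpr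
        fun x hx => hRUc x hx u hu, Subgroup.commutator_bot_left]
    have h3 := Subgroup.commutator_commutator_eq_bot_of_rotate h1 h2
    rw [hRVeq, Subgroup.commutator_eq_bot_iff_le_centralizer] at h3
    exact fun u hu v hv => Subgroup.mem_centralizer_iff.mp (h3 hv) u hu
  -- `R` has no fixed points on `V / U`
  have hfixR : ∀ v ∈ V, (∀ x ∈ R, x * v * x⁻¹ * v⁻¹ ∈ U) → v ∈ U := by
    let U' : Subgroup G :=
      { carrier := {v | v ∈ V ∧ ∀ x ∈ R, x * v * x⁻¹ * v⁻¹ ∈ U}
        one_mem' := ⟨V.one_mem, fun x _ => by simp⟩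
        mul_mem' := fun {v w} hv hw => ⟨V.mul_mem hv.1 hw.1, fun x hx => by
          rw [show x * (v * w) * x⁻¹ * (v * w)⁻¹ = (x * v * x⁻¹ * v⁻¹) * (v * (x * w * x⁻¹ * w⁻¹) * v⁻¹) by group]
          exact U.mul_mem (hv.2 x hx) ((Subgroup.mem_normalizer_iff.mp (hVU hv.1) _).mp (hw.2 x hx))⟩
        inv_mem' := fun {v} hv => ⟨V.inv_mem hv.1, fun x hx => by
          rw [show x * v⁻¹ * x⁻¹ * v⁻¹⁻¹ = v⁻¹ * (x * v * x⁻¹ * v⁻¹)⁻¹ * v⁻¹⁻¹ by group]
          exact (Subgroup.mem_normalizer_iff.mp (hVU (V.inv_mem hv.1)) _).mp (U.inv_mem (hv.2 x hx))⟩ }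
    have hU1 : U ≤ U' := fun u hu => ⟨hUV hu, fun x hx => by
      rw [hRUc x hx u hu]; simp⟩
    have hU2 : U' ≤ V := fun v hv => hv.1
    have hU3 : A ≤ Subgroup.normalizer (U' : Set G) := by
      rw [Subgroup.le_normalizer_iff]
      intro g hg v hv
      refine ⟨hconjV g hg v hv.1, fun x hx => ?_⟩
      have hx' : g⁻¹ * x * g ∈ R := by
        simpa using (Subgroup.mem_normalizer_iff.mp (hAR (A.inv_mem hg)) x).mp hx
      have := (Subgroup.mem_normalizer_iff.mp (hAU hg) _).mp (hv.2 _ hx')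
      simpa [mul_assoc] using this
    rcases hUtop U' hU1 hU2 hU3 with h | h
    · intro v hv hvx
      have : v ∈ U' := ⟨hv, hvx⟩
      rwa [h] at this
    · exact (hcop' U hUV hRUc fun x hx v hv => ((h.symm ▸ hv : v ∈ U')).2 x hx).elim
  have hAVU : ∀ v ∈ V, v ∈ A → v ∈ U := fun v hv hvA =>
    hfixR v hv fun x hx => by rw [hVA x hx v hv hvA]; simp
  -- the product `X = A V`
  set X : Subgroup G := A ⊔ V with hX
  have hXmem : ∀ g ∈ X, ∃ b ∈ A, ∃ v ∈ V, g = b * v := by
    intro g hg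
    have : g ∈ (A : Set G) * (V : Set G) := by
      rw [← Subgroup.coe_mul_of_left_le_normalizer_right A V hAV]; exact hg
    obtain ⟨b, hb, v, hv, rfl⟩ := this
    exact ⟨b, hb, v, hv, rfl⟩
  have hXV : X ≤ Subgroup.normalizer (V : Set G) := sup_le hAV Subgroup.le_normalizer
  have hXU : X ≤ Subgroup.normalizer (U : Set G) := sup_le hAU hVU
  have hXsol : Group.IsSolvable ↥X := by
    haveI : (V.subgroupOf X).Normal := ⟨fun v hv g =>
      (Subgroup.mem_normalizer_iff.mp (hXV g.2) (v : G)).mp hv⟩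
    haveI := hsol
    haveI : Group.IsSolvable ↥(V.subgroupOf X) := by
      haveI : Group.IsNilpotent ↥(V.subgroupOf X) :=
        (hV.of_equiv (Subgroup.subgroupOfEquivOfLe (le_sup_right : V ≤ X)).symm).isNilpotent
      infer_instance
    haveI : Group.IsSolvable (↥X ⧸ V.subgroupOf X) := by
      refine Group.isSolvable_of_surjective
        (f := (QuotientGroup.mk' (V.subgroupOf X)).comp (Subgroup.inclusion (le_sup_left : A ≤ X))) ?_
      intro u
      obtain ⟨⟨g, hg⟩, rfl⟩ := QuotientGroup.mk_surjective u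
      obtain ⟨b, hb, v, hv, rfl⟩ := hXmem g hg
      refine ⟨⟨b, hb⟩, (QuotientGroup.eq).mpr ?_⟩
      simpa [Subgroup.mem_subgroupOf] using hv
    exact Group.isSolvable_of_ker_le_range (V.subgroupOf X).subtype (QuotientGroup.mk' (V.subgroupOf X))
      (by simp)
  have hPA : P ≤ A := hAeq ▸ le_sup_left
  obtain ⟨⟨z, hzP⟩, hzgen⟩ := (isCyclic_of_prime_card hP).exists_generator
  have hPz : ∀ g ∈ P, ∃ j : ℤ, g = z ^ j := fun g hg => by
    obtain ⟨j, hj⟩ := Subgroup.mem_zpowers_iff.mp (hzgen ⟨g, hg⟩)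
    exact ⟨j, by simpa using (congrArg Subtype.val hj).symm⟩
  have hzA : z ∈ A := hPA hzP
  set z₂ := a * z * a⁻¹ with hz₂
  have hz₂A : z₂ ∈ A := A.mul_mem (A.mul_mem ha hzA) (A.inv_mem ha)
  -- the fixed points modulo `U`
  let Fix : ∀ g : G, g ∈ A → Subgroup G := fun g hg =>
    { carrier := {v | v ∈ V ∧ g * v * g⁻¹ * v⁻¹ ∈ U}
      one_mem' := ⟨V.one_mem, by simp⟩
      mul_mem' := fun {v w} hv hw => ⟨V.mul_mem hv.1 hw.1, by
        rw [show g * (v * w) * g⁻¹ * (v * w)⁻¹ = (g * v * g⁻¹ * v⁻¹) * (v * (g * w * g⁻¹ * w⁻¹) * v⁻¹) by group]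
        exact U.mul_mem hv.2 ((Subgroup.mem_normalizer_iff.mp (hVU hv.1) _).mp hw.2)⟩
      inv_mem' := fun {v} hv => ⟨V.inv_mem hv.1, by
        rw [show g * v⁻¹ * g⁻¹ * v⁻¹⁻¹ = v⁻¹ * (g * v * g⁻¹ * v⁻¹)⁻¹ * v⁻¹⁻¹ by group]
        exact (Subgroup.mem_normalizer_iff.mp (hVU (V.inv_mem hv.1)) _).mp (U.inv_mem hv.2)⟩ }
  -- every element of `V` is a product of fixed elements
  have hcover : ∀ v ∈ V, ∃ f₁ ∈ Fix z hzA, ∃ f₂ ∈ Fix z₂ hz₂A, v = f₁ * f₂ := by
    intro v'' hv''
    set v := a⁻¹ * v'' * a with hv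
    have hvV : v ∈ V := by simpa [hv] using hconjV a⁻¹ (A.inv_mem ha) v'' hv''
    set D : Subgroup G := P ⊔ P.map (MulAut.conj (a * v)).toMonoidHom with hD
    have havX : a * v ∈ X := X.mul_mem ((le_sup_left : A ≤ X) ha) ((le_sup_right : V ≤ X) hvV)
    have hDX : D ≤ X := sup_le (hPA.trans le_sup_left) (by
      rintro _ ⟨g, hg, rfl⟩
      exact X.mul_mem (X.mul_mem havX ((le_sup_left : A ≤ X) (hPA hg))) (X.inv_mem havX))
    have hDV : X ≤ D ⊔ V := by
      refine sup_le ?_ le_sup_right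
      rw [hAeq]
      refine sup_le (le_sup_left.trans le_sup_left) ?_
      rintro _ ⟨g, hg, rfl⟩
      have h1 : (a * v) * g * (a * v)⁻¹ ∈ D := (le_sup_right : _ ≤ D) ⟨g, hg, rfl⟩
      have h2 : a * v⁻¹ * a⁻¹ ∈ D ⊔ V := (le_sup_right : V ≤ D ⊔ V) (hconjV a ha _ (V.inv_mem hvV))
      have h3 := (D ⊔ V).mul_mem ((D ⊔ V).mul_mem h2 ((le_sup_left : D ≤ D ⊔ V) h1)) ((D ⊔ V).inv_mem h2)
      simpa [mul_assoc] using h3
    have hDVmem : ∀ g ∈ X, ∃ d ∈ D, ∃ w ∈ V, g = d * w := by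
      intro g hg
      have : g ∈ (D : Set G) * (V : Set G) := by
        rw [← Subgroup.coe_mul_of_left_le_normalizer_right D V (hDX.trans hXV)]; exact hDV hg
      obtain ⟨d, hd, w, hw, rfl⟩ := this
      exact ⟨d, hd, w, hw, rfl⟩
    -- `D` contains a conjugate of `R` by an element of `V`
    obtain ⟨w, hwV, hwR⟩ : ∃ w ∈ V, ∀ x ∈ R, w * x * w⁻¹ ∈ D := by
      set Y : Subgroup G := R ⊔ V with hY
      have hYmem : ∀ g ∈ Y, ∃ x ∈ R, ∃ w ∈ V, g = x * w := by
        intro g hg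
        have : g ∈ (R : Set G) * (V : Set G) := by
          rw [← Subgroup.coe_mul_of_left_le_normalizer_right R V (hRA.trans hAV)]; exact hg
        obtain ⟨x, hx, u, hu, rfl⟩ := this
        exact ⟨x, hx, u, hu, rfl⟩
      have hcardY : Nat.card Y = Nat.card R * Nat.card V := by
        rw [← Nat.card_prod]
        refine (Nat.card_congr (Equiv.ofBijective (fun xv : ↥R × ↥V => (⟨(xv.1 : G) * xv.2,
          Y.mul_mem ((le_sup_left : R ≤ Y) xv.1.2) ((le_sup_right : V ≤ Y) xv.2.2)⟩ : ↥Y)) ⟨?_, ?_⟩)).symm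
        · rintro ⟨x, u⟩ ⟨x', u'⟩ h
          have h' : (x : G) * u = x' * u' := congrArg Subtype.val h
          have h1 : (x' : G)⁻¹ * x = 1 := by
            refine hRV1 _ (R.mul_mem (R.inv_mem x'.2) x.2) ?_
            have : (x' : G)⁻¹ * x = u' * (u : G)⁻¹ := by
              rw [eq_mul_inv_iff_mul_eq, mul_assoc, h', inv_mul_cancel_left]
            rw [this]; exact V.mul_mem u'.2 (V.inv_mem u.2)
          have hx : x = x' := Subtype.ext (inv_mul_eq_one.mp h1).symm
          subst hx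
          exact Prod.ext rfl (Subtype.ext (mul_left_cancel h'))
        · rintro ⟨g, hg⟩
          obtain ⟨x, hx, u, hu, rfl⟩ := hYmem g hg
          exact ⟨(⟨x, hx⟩, ⟨u, hu⟩), rfl⟩
      set D' : Subgroup ↥Y := D.subgroupOf Y
      set V' : Subgroup ↥Y := V.subgroupOf Y
      haveI : V'.Normal := ⟨fun u hu g =>
        (Subgroup.mem_normalizer_iff.mp (hXV ((sup_le_sup_right hRA V) g.2)) (u : G)).mp hu⟩
      have hDV' : D' ⊔ V' = ⊤ := by
        rw [eq_top_iff]
        rintro ⟨g, hg⟩ -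
        obtain ⟨d, hd, u, hu, he⟩ := hDVmem g ((sup_le_sup_right hRA V) hg)
        have hdY : d ∈ Y := by
          have hd' : d = g * u⁻¹ := by rw [he, mul_inv_cancel_right]
          rw [hd']; exact Y.mul_mem hg (Y.inv_mem ((le_sup_right : V ≤ Y) hu))
        rw [show (⟨g, hg⟩ : ↥Y) = ⟨d, hdY⟩ * ⟨u, (le_sup_right : V ≤ Y) hu⟩ from Subtype.ext he]
        exact Subgroup.mul_mem _ ((le_sup_left : D' ≤ D' ⊔ V') hd) ((le_sup_right : V' ≤ D' ⊔ V') hu)
      have hV'card : Nat.card V' = Nat.card V :=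
        Nat.card_congr (Subgroup.subgroupOfEquivOfLe (le_sup_right : V ≤ Y)).toEquiv
      have hdvd : Nat.card R ∣ Nat.card D' := by
        have h1 : V'.index = Nat.card R := by
          have := V'.index_mul_card
          rw [hV'card, hcardY] at this
          exact Nat.eq_of_mul_eq_mul_right Nat.card_pos this
        have h2 : V'.relIndex D' = V'.index := by
          rw [← Subgroup.relIndex_sup_right (H := D') (K := V'), hDV', Subgroup.relIndex_top_right]
        rw [← h1, ← h2]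
        exact Subgroup.relIndex_dvd_card V' D'
      obtain ⟨e, he⟩ := hR.exists_card_eq
      obtain ⟨S', hS'c⟩ := Sylow.exists_subgroup_card_pow_prime r (G := ↥D') (n := e) (he ▸ hdvd)
      set S : Subgroup ↥Y := S'.map D'.subtype with hS
      have hScard : Nat.card S = r ^ e := by
        rw [← hS'c]; exact (Nat.card_congr (S'.equivMapOfInjective _ D'.subtype_injective).toEquiv).symm
      have hfacY : (Nat.card ↥Y).factorization r = e := by
        obtain ⟨l, hl⟩ := hV.exists_card_eq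
        rw [hcardY, he, hl, Nat.factorization_mul (pow_ne_zero _ (Nat.Prime.pos Fact.out).ne')
          (pow_ne_zero _ (Nat.Prime.pos Fact.out).ne'), Nat.Prime.factorization_pow (Fact.out : r.Prime),
          Nat.Prime.factorization_pow (Fact.out : q.Prime)]
        simp [hqr]
      let SS : Sylow r ↥Y := Sylow.ofCard S (by rw [hScard, hfacY])
      let RR : Sylow r ↥Y := Sylow.ofCard (R.subgroupOf Y) (by
        rw [Nat.card_congr (Subgroup.subgroupOfEquivOfLe (le_sup_left : R ≤ Y)).toEquiv, he, hfacY])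
      obtain ⟨⟨g, hg⟩, hgS⟩ := MulAction.exists_smul_eq ↥Y RR SS
      obtain ⟨x₀, hx₀, u₀, hu₀, rfl⟩ := hYmem g hg
      refine ⟨x₀ * u₀ * x₀⁻¹, hconjV x₀ (hRA hx₀) u₀ hu₀, fun x hx => ?_⟩
      have hx' : x₀⁻¹ * x * x₀ ∈ R := R.mul_mem (R.mul_mem (R.inv_mem hx₀) hx) hx₀
      have hmem : (MulAut.conj (⟨x₀ * u₀, hg⟩ : ↥Y)) ⟨x₀⁻¹ * x * x₀, (le_sup_left : R ≤ Y) hx'⟩ ∈ S := by
        have h1 : (MulAut.conj (⟨x₀ * u₀, hg⟩ : ↥Y)) ⟨x₀⁻¹ * x * x₀, (le_sup_left : R ≤ Y) hx'⟩ ∈
            ((⟨x₀ * u₀, hg⟩ : ↥Y) • RR : Sylow r ↥Y).toSubgroup := ⟨_, hx', rfl⟩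
        rw [hgS] at h1
        exact h1
      obtain ⟨s, -, hs2⟩ := hmem
      have h2 : ((MulAut.conj (⟨x₀ * u₀, hg⟩ : ↥Y)) ⟨x₀⁻¹ * x * x₀, (le_sup_left : R ≤ Y) hx'⟩ : ↥Y) ∈ D' :=
        hs2 ▸ s.2
      simpa [D', Subgroup.mem_subgroupOf, MulAut.conj_apply, mul_assoc] using h2
    have hwU : ∀ x ∈ R, ∀ u ∈ U, (w * x * w⁻¹) * u = u * (w * x * w⁻¹) := by
      intro x hx u hu
      have e1 : Commute w u := (hUc u hu w hwV).symm
      have e2 : Commute x u := hRUc x hx u hu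
      exact (e1.mul_left e2).mul_left e1.inv_left
    by_cases hcase : ∀ d ∈ D, d ∈ V → d ∈ U
    · -- `D U` is a conjugate of `A U`
      set M : Subgroup G := A ⊔ U with hM
      have hMV : ∀ g ∈ M, g ∈ V → g ∈ U := by
        intro g hg hgV
        have : g ∈ (A : Set G) * (U : Set G) := by
          rw [← Subgroup.coe_mul_of_left_le_normalizer_right A U hAU]; exact hg
        obtain ⟨b, hb, u, hu, rfl⟩ := this
        have hbV : b ∈ V := by
          have := V.mul_mem hgV (V.inv_mem (hUV hu))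
          simpa using this
        exact U.mul_mem (hAVU b hbV hb) hu
      have hDM : ∀ d ∈ D, w⁻¹ * d * w ∈ M := by
        intro d hd
        have hwX : w ∈ X := (le_sup_right : V ≤ X) hwV
        obtain ⟨b, hb, v', hv', he⟩ := hXmem _ (X.mul_mem (X.mul_mem (X.inv_mem hwX) (hDX hd)) hwX)
        have hv'U : v' ∈ U := by
          refine hfixR v' hv' fun x hx => ?_
          -- conjugate `w x w⁻¹` by `d`
          have h1 : d * (w * x * w⁻¹) * d⁻¹ ∈ D := D.mul_mem (D.mul_mem hd (hwR x hx)) (D.inv_mem hd)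
          have h2 : w⁻¹ * (d * (w * x * w⁻¹) * d⁻¹) * w = b * (v' * x * v'⁻¹) * b⁻¹ := by
            rw [show w⁻¹ * (d * (w * x * w⁻¹) * d⁻¹) * w = (w⁻¹ * d * w) * x * (w⁻¹ * d * w)⁻¹ by group, he]
            group
          -- split off the `R`-part
          set v₁ := v' * (x * v'⁻¹ * x⁻¹) with hv₁
          have hv₁V : v₁ ∈ V := V.mul_mem hv' (hconjV x (hRA hx) _ (V.inv_mem hv'))
          set x' := b * x * b⁻¹ with hx'
          have hx'R : x' ∈ R := (Subgroup.mem_normalizer_iff.mp (hAR hb) x).mp hx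
          have h3 : b * (v' * x * v'⁻¹) * b⁻¹ = (b * v₁ * b⁻¹) * x' := by rw [hv₁, hx']; group
          have h4 : w * (b * v₁ * b⁻¹) * w⁻¹ ∈ U := by
            refine hcase _ ?_ (V.mul_mem (V.mul_mem hwV (hconjV b hb _ hv₁V)) (V.inv_mem hwV))
            have := D.mul_mem h1 (D.inv_mem (hwR x' hx'R))
            rw [show d * (w * x * w⁻¹) * d⁻¹ = w * (w⁻¹ * (d * (w * x * w⁻¹) * d⁻¹) * w) * w⁻¹ by group, h2, h3] at this
            simpa [mul_assoc] using this
          have h5 : b * v₁ * b⁻¹ ∈ U := (Subgroup.mem_normalizer_iff.mp (hVU hwV) _).mpr h4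
          have h6 : v₁ ∈ U := (Subgroup.mem_normalizer_iff.mp (hAU hb) _).mpr h5
          have h7 : v'⁻¹ * v₁ * v' = x * v'⁻¹ * x⁻¹ * v' := by rw [hv₁]; group
          have h8 : x * v' * x⁻¹ * v'⁻¹ = x * (x⁻¹ * v₁⁻¹ * x) * x⁻¹ * 1 * (v' * v'⁻¹) := by rw [hv₁]; group
          rw [h8, mul_one, mul_inv_cancel, mul_one]
          rw [show x * (x⁻¹ * v₁⁻¹ * x) * x⁻¹ = v₁⁻¹ by group]
          exact U.inv_mem h6
        rw [he]
        exact M.mul_mem ((le_sup_left : A ≤ M) hb) ((le_sup_right : U ≤ M) hv'U)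
      have hzM : w⁻¹ ∈ Fix z hzA := by
        refine ⟨V.inv_mem hwV, hMV _ ?_ (V.mul_mem (hconjV z hzA _ (V.inv_mem hwV)) (V.inv_mem (V.inv_mem hwV)))⟩
        have h1 := hDM z ((le_sup_left : P ≤ D) hzP)
        have h2 := M.mul_mem ((le_sup_left : A ≤ M) hzA) (M.inv_mem h1)
        simpa [mul_assoc] using h2
      have hz₂M : w⁻¹ * v'' ∈ Fix z₂ hz₂A := by
        have hu : w⁻¹ * v'' ∈ V := V.mul_mem (V.inv_mem hwV) hv''
        refine ⟨hu, hMV _ ?_ (V.mul_mem (hconjV z₂ hz₂A _ hu) (V.inv_mem hu))⟩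
        have h0 : (a * v) * z * (a * v)⁻¹ ∈ D := (le_sup_right : _ ≤ D) ⟨z, hzP, rfl⟩
        have h1 := hDM _ h0
        have h2 := M.mul_mem ((le_sup_left : A ≤ M) hz₂A) (M.inv_mem h1)
        have e : z₂ * (w⁻¹ * ((a * v) * z * (a * v)⁻¹) * w)⁻¹ = z₂ * (w⁻¹ * v'') * z₂⁻¹ * (w⁻¹ * v'')⁻¹ := by
          rw [hz₂, hv]; group
        rwa [e] at h2
      exact ⟨w, by simpa using (Fix z hzA).inv_mem hzM, w⁻¹ * v'', hz₂M, by rw [mul_inv_cancel_left]⟩
    · -- `D` contains `V`, so `A` was not maximal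
      exfalso
      push Not at hcase
      obtain ⟨d₀, hd₀, hd₀V, hd₀U⟩ := hcase
      let U'' : Subgroup G := (D ⊓ V) ⊔ U
      have hU''V : U'' ≤ V := sup_le inf_le_right hUV
      have hXnorm : X ≤ Subgroup.normalizer (U'' : Set G) := by
        refine hDV.trans (sup_le ?_ ?_)
        · refine le_trans ?_ (Subgroup.normalizer_inf_normalizer_le_normalizer_sup (H := D ⊓ V) (K := U))
          refine le_inf ?_ (hDX.trans hXU)
          exact le_trans (le_inf Subgroup.le_normalizer (hDX.trans hXV)) Subgroup.inf_normalizer_le_normalizer_inf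
        · rw [Subgroup.le_normalizer_iff]
          intro u hu t ht
          have := U''.mul_mem ((le_sup_right : U ≤ U'') (hcommU u hu t (hU''V ht))) ht
          rwa [inv_mul_cancel_right] at this
      rcases hUtop U'' le_sup_right hU''V ((le_sup_left : A ≤ X).trans hXnorm) with h | h
      · exact hd₀U (h ▸ (le_sup_left : D ⊓ V ≤ U'') ⟨hd₀, hd₀V⟩)
      · have hVD : V ≤ D := by
          have hgen : ∀ x ∈ R, ∀ u ∈ V, ⁅x, u⁆ ∈ D.comap (MulAut.conj w).toMonoidHom := by
            intro x hx u hu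
            show w * ⁅x, u⁆ * w⁻¹ ∈ D
            have hu' : w * u * w⁻¹ ∈ U'' := h.symm ▸ V.mul_mem (V.mul_mem hwV hu) (V.inv_mem hwV)
            have hUn : D ⊓ V ≤ Subgroup.normalizer (U : Set G) := inf_le_right.trans hVU
            have hmem : w * u * w⁻¹ ∈ ((D ⊓ V : Subgroup G) : Set G) * (U : Set G) := by
              rw [← Subgroup.coe_mul_of_left_le_normalizer_right _ U hUn]; exact hu'
            obtain ⟨d, hd, u', hu'', he⟩ := hmem
            simp only at he
            rw [show w * ⁅x, u⁆ * w⁻¹ = (w * x * w⁻¹) * (w * u * w⁻¹) * (w * x * w⁻¹)⁻¹ * (w * u * w⁻¹)⁻¹ by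
              rw [commutatorElement_def]; group, ← he]
            set y := w * x * w⁻¹
            have hc : Commute y u' := hwU x hx u' hu''
            rw [show y * (d * u') * y⁻¹ * (d * u')⁻¹ = y * d * (u' * y⁻¹) * u'⁻¹ * d⁻¹ by group,
              (hc.inv_left).symm.eq, show y * d * (y⁻¹ * u') * u'⁻¹ * d⁻¹ = y * d * y⁻¹ * d⁻¹ by group]
            exact D.mul_mem (D.mul_mem (D.mul_mem (hwR x hx) hd.1) (D.inv_mem (hwR x hx))) (D.inv_mem hd.1)
          intro u hu
          have h1 : w⁻¹ * u * w ∈ ⁅R, V⁆ := hRVeq.symm ▸ V.mul_mem (V.mul_mem (V.inv_mem hwV) hu) hwV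
          have h2 := (Subgroup.commutator_le.mpr hgen) h1
          simpa [mul_assoc] using h2
        have hDX' : D = X := le_antisymm hDX (hDV.trans (sup_le le_rfl hVD))
        have := hmax X le_sup_left hXsol ⟨a * v, havX, hDX' ▸ hD⟩
        exact hVnA (this ▸ le_sup_right)
  -- the module `V / U`
  haveI hUn : (U.subgroupOf V).Normal := ⟨fun u hu v =>
    (Subgroup.mem_normalizer_iff.mp (hVU v.2) (u : G)).mp hu⟩
  set W := ↥V ⧸ U.subgroupOf V
  have hWc : ∀ s t : W, s * t = t * s := by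
    intro s t
    obtain ⟨s, rfl⟩ := QuotientGroup.mk_surjective s
    obtain ⟨t, rfl⟩ := QuotientGroup.mk_surjective t
    rw [← QuotientGroup.mk_mul, ← QuotientGroup.mk_mul, QuotientGroup.eq, Subgroup.mem_subgroupOf]
    simpa [mul_assoc] using hcommU _ (V.inv_mem t.2) _ (V.inv_mem s.2)
  letI : CommGroup W := { (inferInstance : Group W) with mul_comm := hWc }
  let τ : ↥A →* MulAut ↥V := V.normalizerMonoidHom.comp (Subgroup.inclusion hAV)
  have hτ : ∀ (g : ↥A) (u : ↥V), ((τ g u : ↥V) : G) = (g : G) * u * (g : G)⁻¹ := fun g u => rfl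
  let cg : ↥A → (W →* W) := fun g =>
    QuotientGroup.map _ _ (τ g).toMonoidHom (fun u hu => by
      rw [Subgroup.mem_comap, Subgroup.mem_subgroupOf]
      exact (Subgroup.mem_normalizer_iff.mp (hAU g.2) (u : G)).mp hu)
  haveI : Module (ZMod q) (Additive W) := AddCommGroup.zmodModule (G := Additive W) (fun s => by
    obtain ⟨u, hu⟩ := QuotientGroup.mk_surjective (Additive.toMul s)
    apply Additive.toMul.injective
    rw [toMul_nsmul, toMul_zero, ← hu, ← QuotientGroup.mk_pow, QuotientGroup.eq_one_iff]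
    exact hpowU _ u.2)
  haveI : Module.Finite (ZMod q) (Additive W) := Module.Finite.of_finite
  let ρ₀ : ↥A →* Module.End (ZMod q) (Additive W) :=
    { toFun := fun g => (MonoidHom.toAdditive (cg g)).toZModLinearMap q
      map_one' := by
        apply LinearMap.ext
        intro s
        obtain ⟨u, rfl⟩ := Additive.ofMul.surjective s
        obtain ⟨u, rfl⟩ := QuotientGroup.mk_surjective u
        show Additive.ofMul (QuotientGroup.mk (τ 1 u) : W) = _
        rw [map_one, MulAut.one_apply]; rfl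
      map_mul' := fun g h => by
        apply LinearMap.ext
        intro s
        obtain ⟨u, rfl⟩ := Additive.ofMul.surjective s
        obtain ⟨u, rfl⟩ := QuotientGroup.mk_surjective u
        show Additive.ofMul (QuotientGroup.mk (τ (g * h) u) : W) = _
        rw [map_mul]; rfl }
  have hρ₀ : ∀ (g : ↥A) (u : ↥V),
      ρ₀ g (Additive.ofMul (QuotientGroup.mk u : W)) = Additive.ofMul (QuotientGroup.mk (τ g u) : W) :=
    fun _ _ => rfl
  have hmk0 : ∀ u : ↥V, Additive.ofMul (QuotientGroup.mk u : W) = 0 ↔ (u : G) ∈ U := by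
    intro u
    rw [ofMul_eq_zero, QuotientGroup.eq_one_iff, Subgroup.mem_subgroupOf]
  have hirr₀ : ∀ S : Submodule (ZMod q) (Additive W), (∀ g, ∀ s ∈ S, ρ₀ g s ∈ S) → S = ⊥ ∨ S = ⊤ := by
    intro S hS
    let U' : Subgroup G :=
      ((S.toAddSubgroup.toSubgroup').comap (QuotientGroup.mk' (U.subgroupOf V))).map V.subtype
    have hmem : ∀ u : ↥V, (u : G) ∈ U' ↔ Additive.ofMul (QuotientGroup.mk u : W) ∈ S := by
      intro u
      constructor
      · rintro ⟨u', hu', he⟩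
        rw [show u = u' from (Subtype.ext he).symm]
        exact hu'
      · exact fun h => ⟨u, h, rfl⟩
    have h2 : U' ≤ V := Subgroup.map_subtype_le _
    have h1 : U ≤ U' := fun u hu => (hmem ⟨u, hUV hu⟩).mpr (by rw [(hmk0 _).mpr hu]; exact S.zero_mem)
    have h3 : A ≤ Subgroup.normalizer (U' : Set G) := by
      rw [Subgroup.le_normalizer_iff]
      intro g hg u hu
      have := hS ⟨g, hg⟩ _ ((hmem ⟨u, h2 hu⟩).mp hu)
      rw [hρ₀] at this
      exact (hmem ⟨g * u * g⁻¹, hconjV g hg u (h2 hu)⟩).mpr this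
    rcases hUtop U' h1 h2 h3 with h | h
    · left
      rw [Submodule.eq_bot_iff]
      intro s hs
      obtain ⟨u, rfl⟩ := Additive.ofMul.surjective s
      obtain ⟨u, rfl⟩ := QuotientGroup.mk_surjective u
      exact (hmk0 u).mpr (h ▸ (hmem u).mpr hs)
    · right
      rw [eq_top_iff]
      intro s _
      obtain ⟨u, rfl⟩ := Additive.ofMul.surjective s
      obtain ⟨u, rfl⟩ := QuotientGroup.mk_surjective u
      exact (hmem u).mp (h.symm ▸ u.2)
  obtain ⟨u₀, hu₀, hu₀U⟩ := SetLike.exists_of_lt (lt_of_le_of_ne hUV hUne)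
  haveI : Nontrivial (Additive W) := ⟨Additive.ofMul (QuotientGroup.mk (⟨u₀, hu₀⟩ : ↥V) : W), 0, fun h =>
    hu₀U ((hmk0 _).mp h)⟩
  let zA : ↥A := ⟨z, hzA⟩
  let aA : ↥A := ⟨a, ha⟩
  have hnc : Subgroup.normalClosure ({zA} : Set ↥A) = ⊤ := by
    rw [eq_top_iff]
    rintro ⟨g, hg⟩ -
    set N := Subgroup.normalClosure ({zA} : Set ↥A)
    have hN : A ≤ N.map A.subtype := by
      refine hAeq.le.trans (sup_le (fun x hx => ?_) ?_)
      · obtain ⟨j, rfl⟩ := hPz x hx
        exact ⟨zA ^ j, N.zpow_mem (Subgroup.subset_normalClosure rfl) j, by simp [zA]⟩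
      · rintro _ ⟨x, hx, rfl⟩
        obtain ⟨j, rfl⟩ := hPz x hx
        refine ⟨aA * zA ^ j * aA⁻¹, (Subgroup.normalClosure_normal).conj_mem _
          (N.zpow_mem (Subgroup.subset_normalClosure rfl) j) _, by simp [aA, zA]⟩
    obtain ⟨x, hx, he⟩ := hN hg
    rwa [show (⟨g, hg⟩ : ↥A) = x from Subtype.ext he.symm]
  have hzp : zA ^ p = 1 := by
    apply Subtype.ext
    have h : (⟨z, hzP⟩ : ↥P) ^ Nat.card ↥P = 1 := pow_card_eq_one'
    rw [hP] at h
    have h' := congrArg Subtype.val h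
    simpa [zA] using h'
  haveI := hsol
  refine false_of_cover hp ρ₀ hirr₀ zA aA hzp hnc (fun h => ?_) fun s => ?_
  · refine hUne (le_antisymm hUV fun u hu => hfixR u hu fun x hx => ?_)
    have h1 : ρ₀ ⟨x, hRA hx⟩ = 1 := h _
    have h2 := LinearMap.congr_fun h1 (Additive.ofMul (QuotientGroup.mk (⟨u, hu⟩ : ↥V) : W))
    rw [hρ₀, Module.End.one_apply] at h2
    have h3 := (QuotientGroup.eq).mp (Additive.ofMul.injective h2).symm
    rw [Subgroup.mem_subgroupOf] at h3
    have h4 := (Subgroup.mem_normalizer_iff.mp (hVU hu) _).mp h3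
    simpa [τ, mul_assoc] using h4
  · obtain ⟨u, rfl⟩ := Additive.ofMul.surjective s
    obtain ⟨u, rfl⟩ := QuotientGroup.mk_surjective u
    obtain ⟨f₁, hf₁, f₂, hf₂, he⟩ := hcover u u.2
    have hfix : ∀ u : ↥V, (u : G) ∈ Fix z hzA →
        ρ₀ zA (Additive.ofMul (QuotientGroup.mk u : W)) = Additive.ofMul (QuotientGroup.mk u : W) := by
      intro u hu
      rw [hρ₀]
      congr 1
      rw [eq_comm, QuotientGroup.eq, Subgroup.mem_subgroupOf]
      refine (Subgroup.mem_normalizer_iff.mp (hVU u.2) _).mpr ?_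
      simpa [τ, zA, mul_assoc] using hu.2
    have hf₂V : a⁻¹ * f₂ * a ∈ V := by simpa using hconjV a⁻¹ (A.inv_mem ha) f₂ hf₂.1
    have hf₂' : a⁻¹ * f₂ * a ∈ Fix z hzA := by
      refine ⟨hf₂V, ?_⟩
      have := (Subgroup.mem_normalizer_iff.mp (hAU (A.inv_mem ha)) _).mp hf₂.2
      simpa [hz₂, mul_assoc] using this
    refine ⟨Additive.ofMul (QuotientGroup.mk (⟨f₁, hf₁.1⟩ : ↥V) : W),
      Additive.ofMul (QuotientGroup.mk (⟨a⁻¹ * f₂ * a, hf₂V⟩ : ↥V) : W),
      hfix _ hf₁, hfix _ hf₂', ?_⟩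
    rw [hρ₀, ← ofMul_mul, ← QuotientGroup.mk_mul]
    congr 2
    apply Subtype.ext
    simp [τ, aA, he, mul_assoc]

/-- `F(A) V` is nilpotent for such a maximal `A` and any nilpotent `V` normalised by it. -/
theorem nilpotent_fitting_sup [Finite G] {p : ℕ} [Fact p.Prime] (hp : 3 < p) (P A : Subgroup G)
    (hP : Nat.card P = p) (hsol : Group.IsSolvable ↥A) (a : G) (ha : a ∈ A)
    (hAeq : A = P ⊔ P.map (MulAut.conj a).toMonoidHom)
    (hmax : ∀ B : Subgroup G, A ≤ B → Group.IsSolvable ↥B →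
      (∃ b ∈ B, B = P ⊔ P.map (MulAut.conj b).toMonoidHom) → B = A)
    (V : Subgroup G) (hV : Group.IsNilpotent ↥V) (hAV : A ≤ Subgroup.normalizer (V : Set G)) :
    Group.IsNilpotent ↥((Cfsg.fittingSubgroup ↥A).map A.subtype ⊔ V) := by
  classical
  let ι := {q : ℕ // q ∈ (Nat.card G).primeFactors}
  have hfact : ∀ q : ι, Fact (q : ℕ).Prime := fun q => ⟨(Nat.mem_primeFactors.1 q.2).1⟩
  let R : ι → Subgroup G := fun q => (Cfsg.pCore (q : ℕ) ↥A).map A.subtype
  let Vq : ι → Subgroup G := fun q => (Cfsg.pCore (q : ℕ) ↥V).map V.subtype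
  have hAR : ∀ q, A ≤ Subgroup.normalizer (R q : Set G) := fun q => by
    haveI := H19.pCore_characteristic (q : ℕ) ↥A
    exact H20.le_normalizer_map_characteristic Subgroup.le_normalizer _
  have hAVq : ∀ q, A ≤ Subgroup.normalizer (Vq q : Set G) := fun q => by
    haveI := H19.pCore_characteristic (q : ℕ) ↥V
    exact H20.le_normalizer_map_characteristic hAV _
  have hRA : ∀ q, R q ≤ A := fun q => Subgroup.map_subtype_le _
  have hVqV : ∀ q, Vq q ≤ V := fun q => Subgroup.map_subtype_le _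
  have hRp : ∀ q : ι, IsPGroup (q : ℕ) (R q) := fun q => (H19.pCore_isPGroup _).map _
  have hVp : ∀ q : ι, IsPGroup (q : ℕ) (Vq q) := fun q => (H19.pCore_isPGroup _).map _
  have hdisj : ∀ {H : Type _} [Group H] [Finite H] (q r : ι), q ≠ r → ∀ x y : H,
      x ∈ Cfsg.pCore (q : ℕ) H → y ∈ Cfsg.pCore (r : ℕ) H → Commute x y := by
    intro H _ _ q r hqr x y hx hy
    haveI := hfact q
    haveI := hfact r
    exact Subgroup.commute_of_normal_of_disjoint _ _ (H19.pCore_normal _ _) (H19.pCore_normal _ _)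
      (IsPGroup.disjoint_of_ne (q : ℕ) (r : ℕ) (fun h => hqr (Subtype.ext h)) _ _
        (H19.pCore_isPGroup _) (H19.pCore_isPGroup _)) x y hx hy
  let S : ι → Subgroup G := fun q => R q ⊔ Vq q
  have hSp : ∀ q : ι, IsPGroup (q : ℕ) (S q) := fun q =>
    IsPGroup.to_sup_of_normal_right' (hRp q) (hVp q) ((hRA q).trans (hAVq q))
  have hcross : ∀ q r : ι, q ≠ r → R q ≤ Subgroup.centralizer (Vq r : Set G) := fun q r hqr => by
    haveI := hfact q
    haveI := hfact r
    exact centralize_of_maximal hp P A hP hsol a ha hAeq hmax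
      (fun h => hqr (Subtype.ext h.symm)) (R q) (hRA q) (hAR q) (hRp q) (Vq r) (hVp r) (hAVq r)
  have hcomm : Pairwise fun q r => ∀ x y : G, x ∈ S q → y ∈ S r → Commute x y := by
    intro q r hqr x y hx hy
    have h1 : S q ≤ Subgroup.centralizer (S r : Set G) := by
      refine sup_le ?_ ?_ <;> intro u hu <;>
        rw [Subgroup.mem_centralizer_iff] <;> intro w hw
      · suffices S r ≤ Subgroup.centralizer {u} from
          (Subgroup.mem_centralizer_singleton_iff.mp (this hw))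
        refine sup_le (fun w hw => ?_) (fun w hw => ?_)
        · obtain ⟨u', hu', rfl⟩ := hu
          obtain ⟨w', hw', rfl⟩ := hw
          rw [Subgroup.mem_centralizer_singleton_iff]
          exact ((hdisj q r hqr u' w' hu' hw').map A.subtype).symm
        · rw [Subgroup.mem_centralizer_singleton_iff]
          exact Subgroup.mem_centralizer_iff.mp (hcross q r hqr hu) w hw
      · suffices S r ≤ Subgroup.centralizer {u} from
          (Subgroup.mem_centralizer_singleton_iff.mp (this hw))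
        refine sup_le (fun w hw => ?_) (fun w hw => ?_)
        · rw [Subgroup.mem_centralizer_singleton_iff]
          exact (Subgroup.mem_centralizer_iff.mp (hcross r q (Ne.symm hqr) hw) u hu).symm
        · obtain ⟨u', hu', rfl⟩ := hu
          obtain ⟨w', hw', rfl⟩ := hw
          rw [Subgroup.mem_centralizer_singleton_iff]
          exact ((hdisj q r hqr u' w' hu' hw').map V.subtype).symm
    exact (Subgroup.mem_centralizer_iff.mp (h1 hx) y hy).symm
  have hnil : Group.IsNilpotent ↥(⨆ q, S q : Subgroup G) := by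
    haveI : ∀ q, Group.IsNilpotent ↥(S q) := fun q => by
      haveI := hfact q
      exact (hSp q).isNilpotent
    rw [← Subgroup.noncommPiCoprod_range (hcomm := hcomm)]
    exact Group.nilpotent_of_surjective _ (Subgroup.noncommPiCoprod hcomm).rangeRestrict_surjective
  have hle : (Cfsg.fittingSubgroup ↥A).map A.subtype ⊔ V ≤ ⨆ q, S q := by
    refine sup_le ?_ ?_
    · rw [H19.fitting_eq_iSup_pCore', Subgroup.map_iSup]
      refine iSup_le fun q => ?_
      have hq : (q : ℕ) ∈ (Nat.card G).primeFactors := Nat.mem_primeFactors.2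
        ⟨(Nat.mem_primeFactors.1 q.2).1, (Nat.mem_primeFactors.1 q.2).2.1.trans A.card_subgroup_dvd_card,
          Nat.card_pos.ne'⟩
      exact le_trans le_sup_left (le_iSup S ⟨(q : ℕ), hq⟩)
    · haveI := hV
      have h := H19.le_iSup_pCore_of_nilpotent (⊤ : Subgroup ↥V)
      have h' := Subgroup.map_mono (f := V.subtype) h
      rw [← MonoidHom.range_eq_map, Subgroup.range_subtype, Subgroup.map_iSup] at h'
      refine h'.trans (iSup_le fun q => ?_)
      have hq : (q : ℕ) ∈ (Nat.card G).primeFactors := Nat.mem_primeFactors.2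
        ⟨(Nat.mem_primeFactors.1 q.2).1, (Nat.mem_primeFactors.1 q.2).2.1.trans V.card_subgroup_dvd_card,
          Nat.card_pos.ne'⟩
      exact le_trans le_sup_right (le_iSup S ⟨(q : ℕ), hq⟩)
  haveI := hnil
  exact Group.isNilpotent_congr (Subgroup.subgroupOfEquivOfLe hle) |>.1 inferInstance

end Cfsg.Agent.H60.HalfFix
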