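import Mathlib

/-! Fixed vectors are determined by their components at orbit representatives: dimension bound,
orbit count for a permutation of prime order, fixed points in solvable transitive groups. -/

set_option autoImplicit false

namespace Cfsg.Agent.H60.HalfFix

open MulAction

/-- A space whose elements are determined by components `P i`, such that vanishing of a component
propagates along `Γ`-orbits, has dimension at most (number of orbits) times (component bound). -/
theorem finrank_le_orbits {K F E Γ ι : Type*} [Field K] [AddCommGroup F] [Module K F]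
    [AddCommGroup E] [Module K E] [FiniteDimensional K E] [Group Γ] [MulAction Γ ι] [Finite ι]
    (P : ι → F →ₗ[K] E) (d : ℕ) (hd : ∀ i, Module.finrank K (LinearMap.range (P i)) ≤ d)
    (hinj : ∀ e, (∀ i, P i e = 0) → e = 0)
    (hequiv : ∀ (γ : Γ) (i : ι) (e : F), P i e = 0 → P (γ • i) e = 0) :
    Module.finrank K F ≤ Nat.card (orbitRel.Quotient Γ ι) * d := by
  classical
  haveI := Fintype.ofFinite (orbitRel.Quotient Γ ι)
  let Φ : F →ₗ[K] ((o : orbitRel.Quotient Γ ι) → LinearMap.range (P o.out)) :=
    LinearMap.pi fun o => (P o.out).rangeRestrict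
  have hΦ : Function.Injective Φ := by
    rw [injective_iff_map_eq_zero]
    intro e he
    refine hinj e fun i => ?_
    obtain ⟨γ, hγ⟩ : i ∈ orbit Γ ((⟦i⟧ : orbitRel.Quotient Γ ι).out) := by
      have h : (⟦(⟦i⟧ : orbitRel.Quotient Γ ι).out⟧ : orbitRel.Quotient Γ ι) = ⟦i⟧ := Quotient.out_eq _
      have h1 := Quotient.exact h.symm
      exact orbitRel_apply.mp h1
    have h0 : P ((⟦i⟧ : orbitRel.Quotient Γ ι).out) e = 0 := by
      have := congrArg Subtype.val (congrFun he (⟦i⟧ : orbitRel.Quotient Γ ι))
      simpa [Φ] using this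
    simp only at hγ
    rw [← hγ]
    exact hequiv γ _ e h0
  refine (LinearMap.finrank_le_finrank_of_injective hΦ).trans ?_
  rw [Module.finrank_pi_fintype, Nat.card_eq_fintype_card]
  refine (Finset.sum_le_sum fun o _ => hd o.out).trans (le_of_eq ?_)
  simp

/-- Orbit count for a permutation with `σ ^ p = 1`, `p` prime. -/
theorem orbits_mul_le {ι : Type*} [Finite ι] {p : ℕ} (hp : p.Prime) (σ : Equiv.Perm ι) (hσ : σ ^ p = 1) :
    p * Nat.card (orbitRel.Quotient (Subgroup.zpowers σ) ι) ≤
      Nat.card ι + (p - 1) * Nat.card {i : ι // σ i = i} := by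
  classical
  haveI := Fintype.ofFinite ι
  rcases (Nat.dvd_prime hp).mp (orderOf_dvd_of_pow_eq_one hσ) with h1 | hpσ
  · have hσ1 : σ = 1 := orderOf_eq_one_iff.mp h1
    have hfix : Nat.card {i : ι // σ i = i} = Nat.card ι :=
      Nat.card_congr (Equiv.subtypeUnivEquiv (by intro i; simp [hσ1]))
    have hle : Nat.card (orbitRel.Quotient (Subgroup.zpowers σ) ι) ≤ Nat.card ι :=
      Nat.card_le_card_of_surjective _ Quotient.mk_surjective
    rw [hfix, show Nat.card ι + (p - 1) * Nat.card ι = p * Nat.card ι by
      obtain ⟨m, rfl⟩ : ∃ m, p = m + 1 := ⟨p - 1, by have := hp.one_lt; omega⟩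
      simp; ring]
    exact Nat.mul_le_mul_left p hle
  · have hsum := sum_card_fixedBy_eq_card_orbits_mul_card_group (Subgroup.zpowers σ) ι
    have hcard : Fintype.card (Subgroup.zpowers σ) = p := by
      rw [Fintype.card_zpowers, hpσ]
    have hfix : ∀ g : Subgroup.zpowers σ, g ≠ 1 →
        Fintype.card (fixedBy ι g) = Nat.card {i : ι // σ i = i} := by
      intro g hg
      rw [← Nat.card_eq_fintype_card]
      refine Nat.card_congr (Equiv.subtypeEquivRight fun i => ?_)
      have hgen : Subgroup.zpowers (g : Equiv.Perm ι) = Subgroup.zpowers σ := by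
        apply Subgroup.eq_of_le_of_card_ge (Subgroup.zpowers_le.mpr g.2)
        rw [Nat.card_zpowers, Nat.card_zpowers, hpσ]
        have hdvd : orderOf (g : Equiv.Perm ι) ∣ p := by
          rw [← hcard, Subgroup.orderOf_coe]
          simpa using orderOf_dvd_card (x := g)
        rcases (Nat.dvd_prime hp).mp hdvd with h | h
        · exact absurd (Subtype.ext (orderOf_eq_one_iff.mp h)) hg
        · exact h.ge
      rw [mem_fixedBy]
      show (g : Equiv.Perm ι) i = i ↔ σ i = i
      constructor
      · intro h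
        obtain ⟨k, hk⟩ := Subgroup.mem_zpowers_iff.mp (hgen ▸ Subgroup.mem_zpowers σ)
        rw [← hk]; exact Equiv.Perm.zpow_apply_eq_self_of_apply_eq_self h k
      · intro h
        obtain ⟨k, hk⟩ := Subgroup.mem_zpowers_iff.mp g.2
        rw [← hk]; exact Equiv.Perm.zpow_apply_eq_self_of_apply_eq_self h k
    rw [← Finset.add_sum_erase _ _ (Finset.mem_univ (1 : Subgroup.zpowers σ)),
      Finset.sum_congr rfl (fun g hg => hfix g (Finset.ne_of_mem_erase hg))] at hsum
    simp only [Finset.sum_const, Finset.card_erase_of_mem (Finset.mem_univ _), Finset.card_univ,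
      hcard, smul_eq_mul] at hsum
    have h1' : Fintype.card (fixedBy ι (1 : Subgroup.zpowers σ)) = Nat.card ι := by
      rw [← Nat.card_eq_fintype_card]
      exact Nat.card_congr (Equiv.subtypeUnivEquiv (by intro i; simp))
    rw [h1'] at hsum
    rw [Nat.card_eq_fintype_card (α := orbitRel.Quotient (Subgroup.zpowers σ) ι), mul_comm]
    exact hsum.ge

/-- In a finite solvable group generated by the conjugates of an element `x` of prime order at least
five, `x` fixes at most a third of the cosets of a maximal subgroup. -/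
theorem three_fixed_le_of_coatom {G : Type*} [Group G] [Finite G] [Group.IsSolvable G] {p : ℕ}
    (hp : p.Prime) (hp5 : 5 ≤ p) (M : Subgroup G) (hM : IsCoatom M) (x : G) (hx : x ^ p = 1)
    (hgen : Subgroup.normalClosure ({x} : Set G) = ⊤) :
    3 * Nat.card (fixedBy (G ⧸ M) x) ≤ M.index := by
  classical
  rcases isEmpty_or_nonempty (fixedBy (G ⧸ M) x) with he | ⟨⟨w, hw⟩⟩
  · simp
  obtain ⟨g, rfl⟩ := QuotientGroup.mk_surjective w
  set y : G := g⁻¹ * x * g with hy
  clear_value y
  have hyM : y ∈ M := by
    have : ((x * g : G) : G ⧸ M) = (g : G ⧸ M) := hw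
    rw [QuotientGroup.eq] at this
    have h := M.inv_mem this
    simpa [hy, mul_assoc] using h
  have hcardeq : Nat.card (fixedBy (G ⧸ M) x) = Nat.card (fixedBy (G ⧸ M) y) := by
    refine Nat.card_congr (Equiv.subtypeEquiv (MulAction.toPerm (g⁻¹ : G)) fun u => ?_)
    rw [mem_fixedBy, mem_fixedBy, MulAction.toPerm_apply, smul_smul, hy]
    rw [show g⁻¹ * x * g * g⁻¹ = g⁻¹ * x by group, mul_smul, smul_left_cancel_iff]
  rw [hcardeq]
  have hygen : ∀ K : Subgroup G, K.Normal → y ∈ K → K = ⊤ := by
    intro K hK hyK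
    rw [eq_top_iff, ← hgen]
    have : x ∈ K := by
      have := hK.conj_mem y hyK g
      rwa [hy, show g * (g⁻¹ * x * g) * g⁻¹ = x by group] at this
    exact Subgroup.normalClosure_le_normal (Set.singleton_subset_iff.mpr this)
  set C : Subgroup G := M.normalCore with hC
  haveI hCn : C.Normal := Subgroup.normalCore_normal M
  have hCM : C ≤ M := Subgroup.normalCore_le M
  -- a normal subgroup outside `M` which is abelian modulo the core
  obtain ⟨N, hNn, hNM, hNC⟩ : ∃ N : Subgroup G, N.Normal ∧ ¬ N ≤ M ∧ ⁅N, N⁆ ≤ C := by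
    obtain ⟨n, hn⟩ := (inferInstance : Group.IsSolvable G).solvable
    have hex : ∃ j, derivedSeries G j ≤ C := ⟨n, by rw [hn]; exact bot_le⟩
    have h0 : Nat.find hex ≠ 0 := by
      intro h
      have := Nat.find_spec hex
      rw [h, derivedSeries_zero] at this
      exact hM.1 (top_le_iff.mp (this.trans hCM))
    refine ⟨derivedSeries G (Nat.find hex - 1), derivedSeries_normal _ _, fun hle => ?_, ?_⟩
    · haveI := derivedSeries_normal G (Nat.find hex - 1)
      exact Nat.find_min hex (by omega) (Subgroup.normal_le_normalCore.mpr hle)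
    · have := Nat.find_spec hex
      rwa [show Nat.find hex = Nat.find hex - 1 + 1 by omega, derivedSeries_succ] at this
  haveI := hNn
  have hcomm : ∀ a ∈ N, ∀ b ∈ N, a * b * a⁻¹ * b⁻¹ ∈ C := fun a ha b hb => by
    have := hNC (Subgroup.commutator_mem_commutator ha hb)
    rwa [commutatorElement_def] at this
  have hNtop : N ⊔ M = ⊤ := hM.2 _ (lt_of_le_of_ne le_sup_right fun h => hNM (h ▸ le_sup_left))
  have hNMC : N ⊓ M ≤ C := by
    have hNMn : (N ⊓ M).Normal := by
      rw [← Subgroup.normalizer_eq_top_iff, eq_top_iff, ← hNtop]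
      refine sup_le (fun n hn => ?_) (fun m hm => ?_)
      · rw [Subgroup.mem_normalizer_iff]
        intro z
        constructor
        · intro hz
          obtain ⟨hzN, hzM⟩ := Subgroup.mem_inf.mp hz
          refine Subgroup.mem_inf.mpr ⟨hNn.conj_mem _ hzN _, ?_⟩
          have := hCM (hcomm n hn z hzN)
          have h2 := M.mul_mem this hzM
          rwa [inv_mul_cancel_right] at h2
        · intro hz
          obtain ⟨hzN, hzM⟩ := Subgroup.mem_inf.mp hz
          have hzN' : z ∈ N := by
            have := hNn.conj_mem _ hzN n⁻¹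
            simpa [mul_assoc] using this
          refine Subgroup.mem_inf.mpr ⟨hzN', ?_⟩
          have := hCM (hcomm n hn z hzN')
          have h2 := M.mul_mem (M.inv_mem this) hzM
          simpa [mul_assoc] using h2
      · rw [Subgroup.mem_normalizer_iff]
        intro z
        constructor
        · intro hz
          exact ⟨hNn.conj_mem _ hz.1 _, M.mul_mem (M.mul_mem hm hz.2) (M.inv_mem hm)⟩
        · intro hz
          refine ⟨?_, ?_⟩
          · have := hNn.conj_mem _ hz.1 m⁻¹
            simpa [mul_assoc] using this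
          · have := M.mul_mem (M.mul_mem (M.inv_mem hm) hz.2) hm
            simpa [mul_assoc] using this
    haveI := hNMn
    exact Subgroup.normal_le_normalCore.mpr inf_le_right
  -- the centraliser of `y` modulo the core inside `N`
  let S : Subgroup G :=
    { carrier := {n | n ∈ N ∧ y * n * y⁻¹ * n⁻¹ ∈ C}
      one_mem' := ⟨N.one_mem, by simp⟩
      mul_mem' := by
        rintro a b ⟨ha, ha'⟩ ⟨hb, hb'⟩
        refine ⟨N.mul_mem ha hb, ?_⟩
        rw [show y * (a * b) * y⁻¹ * (a * b)⁻¹ =
          (y * a * y⁻¹ * a⁻¹) * (a * (y * b * y⁻¹ * b⁻¹) * a⁻¹) by group]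
        exact C.mul_mem ha' (hCn.conj_mem _ hb' _)
      inv_mem' := by
        rintro a ⟨ha, ha'⟩
        refine ⟨N.inv_mem ha, ?_⟩
        rw [show y * a⁻¹ * y⁻¹ * a⁻¹⁻¹ = a⁻¹ * (y * a * y⁻¹ * a⁻¹)⁻¹ * a⁻¹⁻¹ by group]
        exact hCn.conj_mem _ (C.inv_mem ha') _ }
  have hSN : S ≤ N := fun n hn => hn.1
  -- bijection `N / (N ⊓ M) ≃ G / M`
  have hidx : M.relIndex N ≤ M.index := by
    rw [← Subgroup.relIndex_top_right M]
    exact Subgroup.relIndex_le_of_le_right le_top
      (by rw [Subgroup.relIndex_top_right]; exact Subgroup.index_ne_zero_of_finite)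
  have hMS : M.relIndex N = M.relIndex S * S.relIndex N := by
    have h1 : N ⊓ M ≤ S := fun n hn =>
      ⟨hn.1, C.mul_mem (hCn.conj_mem _ (hNMC hn) _) (C.inv_mem (hNMC hn))⟩
    rw [← Subgroup.inf_relIndex_right M N, ← Subgroup.inf_relIndex_right M S]
    have h2 : M ⊓ S = N ⊓ M := le_antisymm (fun n hn => ⟨hSN hn.2, hn.1⟩) fun n hn => ⟨hn.2, h1 hn⟩
    rw [h2, inf_comm M N, Subgroup.relIndex_mul_relIndex _ _ _ h1 hSN]
  have hfix : Nat.card (fixedBy (G ⧸ M) y) ≤ M.relIndex S := by
    rw [Subgroup.relIndex, Subgroup.index]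
    refine Nat.card_le_card_of_surjective
      (fun u : ↥S ⧸ M.subgroupOf S => (⟨Quotient.map' (fun s : ↥S => (s : G))
          (fun a b h => by
            rw [QuotientGroup.leftRel_apply] at h ⊢
            exact h) u, ?_⟩ : fixedBy (G ⧸ M) y)) ?_
    · induction u using QuotientGroup.induction_on with
      | _ s =>
        show y • ((s : G) : G ⧸ M) = ((s : G) : G ⧸ M)
        rw [MulAction.Quotient.smul_coe, smul_eq_mul, QuotientGroup.eq]
        have h := hCM (hCn.conj_mem _ (C.inv_mem s.2.2) (s : G)⁻¹)
        have h2 := M.mul_mem (M.inv_mem hyM) h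
        refine (iff_of_eq (congrArg (· ∈ M) ?_)).mp h2
        group
    · rintro ⟨u, hu⟩
      obtain ⟨a, rfl⟩ := QuotientGroup.mk_surjective u
      have ha : a ∈ N ⊔ M := hNtop ▸ Subgroup.mem_top a
      obtain ⟨n, hn, m, hm, rfl⟩ := Subgroup.mem_sup_of_normal_left.mp ha
      have heq : ((n * m : G) : G ⧸ M) = (n : G ⧸ M) := by
        rw [QuotientGroup.eq]; simpa using M.inv_mem hm
      have hu' : y • ((n : G) : G ⧸ M) = (n : G ⧸ M) := by rw [← heq]; exact hu
      have hnS : n ∈ S := by
        refine ⟨hn, ?_⟩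
        rw [MulAction.Quotient.smul_coe, smul_eq_mul, QuotientGroup.eq] at hu'
        have h1 : n⁻¹ * y * n ∈ M := by simpa [mul_assoc] using M.inv_mem hu'
        have h3 : n⁻¹ * (y * n * y⁻¹) ∈ M := by
          have := M.mul_mem h1 (M.inv_mem hyM)
          simpa [mul_assoc] using this
        have h4 : n⁻¹ * (y * n * y⁻¹) ∈ C :=
          hNMC ⟨N.mul_mem (N.inv_mem hn) (hNn.conj_mem _ hn _), h3⟩
        have := hCn.conj_mem _ h4 n
        simpa [mul_assoc] using this
      refine ⟨((⟨n, hnS⟩ : ↥S) : ↥S ⧸ M.subgroupOf S), Subtype.ext ?_⟩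
      exact heq.symm
  have h3 : 3 ≤ S.relIndex N := by
    by_contra hlt
    have hpos : S.relIndex N ≠ 0 := Subgroup.index_ne_zero_of_finite
    have h12 : S.relIndex N = 1 ∨ S.relIndex N = 2 := by omega
    -- every element of `N` is centralised modulo the core
    have hall : N ≤ S := by
      rcases h12 with h1 | h2
      · exact Subgroup.relIndex_eq_one.mp h1
      · intro n hn
        have hsq : ∀ m ∈ N, m * m ∈ S := by
          intro m hm
          have := Subgroup.mul_self_mem_of_index_two (H := S.subgroupOf N) h2 ⟨m, hm⟩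
          exact this
        set d := n⁻¹ * (y * n * y⁻¹) with hd
        have hdN : d ∈ N := N.mul_mem (N.inv_mem hn) (hNn.conj_mem _ hn _)
        let π := QuotientGroup.mk' C
        have habel : ∀ a ∈ N, ∀ b ∈ N, π a * π b = π b * π a := by
          intro a ha b hb
          rw [← map_mul, ← map_mul]
          refine (QuotientGroup.eq).mpr ?_
          have := hcomm b⁻¹ (N.inv_mem hb) a⁻¹ (N.inv_mem ha)
          simpa [mul_assoc] using this
        have hfix : ∀ m ∈ S, π y * π m * (π y)⁻¹ = π m := by
          intro m hm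
          have h : π (y * m * y⁻¹ * m⁻¹) = 1 := (QuotientGroup.eq_one_iff _).mpr hm.2
          rw [map_mul, map_mul, map_mul, map_inv, map_inv] at h
          exact mul_inv_eq_one.mp h
        have hdS : d ∈ S := by
          by_cases hnS : n ∈ S
          · refine S.mul_mem (S.inv_mem hnS) ⟨hNn.conj_mem _ hn _, ?_⟩
            rw [show y * (y * n * y⁻¹) * y⁻¹ * (y * n * y⁻¹)⁻¹ = y * (y * n * y⁻¹ * n⁻¹) * y⁻¹ by group]
            exact hCn.conj_mem _ hnS.2 _
          · have hynS : y * n * y⁻¹ ∉ S := by
              intro h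
              apply hnS
              refine ⟨hn, ?_⟩
              have := hCn.conj_mem _ h.2 y⁻¹
              rw [show y⁻¹ * (y * (y * n * y⁻¹) * y⁻¹ * (y * n * y⁻¹)⁻¹) * y⁻¹⁻¹ = y * n * y⁻¹ * n⁻¹ by group] at this
              exact this
            have := (Subgroup.mul_mem_iff_of_index_two (H := S.subgroupOf N) h2
              (a := (⟨n⁻¹, N.inv_mem hn⟩ : ↥N)) (b := ⟨y * n * y⁻¹, hNn.conj_mem _ hn _⟩)).mpr
            exact this (iff_of_false (fun h => hnS (by
              have h' : n⁻¹ ∈ S := h
              simpa using S.inv_mem h')) hynS)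
        have hd2 : π d * π d = 1 := by
          have h := hfix _ (hsq n hn)
          rw [map_mul] at h
          have hyn : π y * π n * (π y)⁻¹ = π n * π d := by simp [hd, map_mul]
          have h' : (π n * π d) * (π n * π d) = π n * π n := by
            rw [← hyn]; simpa [mul_assoc] using h
          rw [mul_assoc, ← mul_assoc (π d), habel d hdN n hn, ← mul_assoc, ← mul_assoc] at h'
          rwa [mul_assoc, mul_eq_left] at h'
        have hiter : ∀ j : ℕ, (π y) ^ j * π n * ((π y) ^ j)⁻¹ = π n * π d ^ j := by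
          intro j
          induction j with
          | zero => simp
          | succ j ih =>
            rw [pow_succ', show π y * π y ^ j * π n * (π y * π y ^ j)⁻¹ =
              π y * (π y ^ j * π n * (π y ^ j)⁻¹) * (π y)⁻¹ by group, ih,
              show π y * (π n * π d ^ j) * (π y)⁻¹ = (π y * π n * (π y)⁻¹) * (π y * π d * (π y)⁻¹) ^ j by
                rw [conj_pow]; group,
              hfix d hdS, show π y * π n * (π y)⁻¹ = π n * π d by simp [hd, map_mul],
              mul_assoc, ← pow_succ']
        have hyp : (π y) ^ p = 1 := by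
          rw [← map_pow, hy]
          have h := conj_pow (i := p) (a := g⁻¹) (b := x)
          rw [inv_inv] at h
          rw [h, hx]; simp
        have hdp : π d ^ p = 1 := by
          have := hiter p
          rw [hyp] at this; simpa using this
        have hd1 : π d = 1 := by
          have h2' : orderOf (π d) ∣ 2 := orderOf_dvd_of_pow_eq_one (by rw [pow_two]; exact hd2)
          have hp' : orderOf (π d) ∣ p := orderOf_dvd_of_pow_eq_one hdp
          have hcop : Nat.Coprime 2 p := (Nat.coprime_primes Nat.prime_two hp).mpr (by omega)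
          exact orderOf_eq_one_iff.mp (Nat.dvd_one.mp (hcop ▸ Nat.dvd_gcd h2' hp'))
        refine ⟨hn, ?_⟩
        have : d ∈ C := (QuotientGroup.eq_one_iff _).mp hd1
        have := hCn.conj_mem _ this n
        simpa [hd, mul_assoc] using this
    -- then `N` is central modulo the core and `M` is normal
    let Kc : Subgroup G := (Subgroup.centralizer ((N.map (QuotientGroup.mk' C)) : Set (G ⧸ C))).comap
      (QuotientGroup.mk' C)
    haveI hNbar : (N.map (QuotientGroup.mk' C)).Normal :=
      hNn.map _ (QuotientGroup.mk'_surjective C)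
    have hKn : Kc.Normal := Subgroup.Normal.comap inferInstance _
    have hKtop : Kc = ⊤ := by
      refine hygen _ hKn ?_
      rw [Subgroup.mem_comap, Subgroup.mem_centralizer_iff]
      rintro _ ⟨n, hn, rfl⟩
      rw [← map_mul, ← map_mul]
      refine (QuotientGroup.eq).mpr ?_
      have h : y * n * y⁻¹ * n⁻¹ ∈ C := (hall hn).2
      have h2 := hCn.conj_mem _ h (n * y)⁻¹
      simpa [mul_assoc] using h2
    have hMn : M.Normal := by
      rw [← Subgroup.normalizer_eq_top_iff, eq_top_iff, ← hNtop]
      refine sup_le (fun n hn => ?_) Subgroup.le_normalizer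
      have hconj : ∀ m : G, n * m * n⁻¹ * m⁻¹ ∈ C := by
        intro m
        have hm : m ∈ Kc := hKtop ▸ Subgroup.mem_top m
        rw [Subgroup.mem_comap, Subgroup.mem_centralizer_iff] at hm
        have := hm _ ⟨n, hn, rfl⟩
        rw [← map_mul, ← map_mul] at this
        have h2 := (QuotientGroup.eq).mp this.symm
        have h3 := hCn.conj_mem _ h2 (m * n)
        simpa [mul_assoc] using h3
      rw [Subgroup.mem_normalizer_iff]
      intro m
      constructor
      · intro hm
        have := M.mul_mem (hCM (hconj m)) hm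
        rwa [inv_mul_cancel_right] at this
      · intro hm
        have := M.mul_mem (M.inv_mem (hCM (hconj m))) hm
        simpa [mul_assoc] using this
    exact hM.1 (hygen M hMn hyM)
  calc 3 * Nat.card (fixedBy (G ⧸ M) y) ≤ 3 * M.relIndex S := Nat.mul_le_mul_left 3 hfix
    _ ≤ S.relIndex N * M.relIndex S := Nat.mul_le_mul_right _ h3
    _ = M.relIndex N := by rw [hMS, mul_comm]
    _ ≤ M.index := hidx

/-- In a finite solvable group generated by the conjugates of an element `x` of prime order at least
five, `x` fixes at most a third of the points of a nontrivial transitive action. -/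
theorem three_fixed_le {G : Type*} [Group G] [Finite G] [Group.IsSolvable G] {p : ℕ}
    (hp : p.Prime) (hp5 : 5 ≤ p) (x : G) (hx : x ^ p = 1)
    (hgen : Subgroup.normalClosure ({x} : Set G) = ⊤)
    {ι : Type*} [Finite ι] [Nontrivial ι] [MulAction G ι] [IsPretransitive G ι] :
    3 * Nat.card {i : ι // x • i = i} ≤ Nat.card ι := by
  classical
  obtain ⟨i₀⟩ := (inferInstance : Nonempty ι)
  set H := stabilizer G i₀ with hH
  have hHne : H ≠ ⊤ := by
    intro h
    obtain ⟨a, ha⟩ := exists_ne i₀
    obtain ⟨g, hg⟩ := exists_smul_eq G i₀ a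
    exact ha (hg.symm.trans (mem_stabilizer_iff.mp (h.symm ▸ Subgroup.mem_top g : g ∈ H)))
  obtain ⟨M, hM, hHM⟩ := (eq_top_or_exists_le_coatom H).resolve_left hHne
  have hMmax := three_fixed_le_of_coatom hp hp5 M hM x hx hgen
  let e := Subgroup.quotientEquivProdOfLE hHM
  let o : G ⧸ H → ι := ofQuotientStabilizer G i₀
  have ho : Function.Bijective o :=
    ⟨injective_ofQuotientStabilizer G i₀, fun a => by
      obtain ⟨g, hg⟩ := exists_smul_eq G i₀ a
      exact ⟨(g : G ⧸ H), hg⟩⟩
  have hfix : Nat.card {i : ι // x • i = i} ≤ Nat.card (fixedBy (G ⧸ M) x) * Nat.card (↥M ⧸ H.subgroupOf M) := by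
    rw [← Nat.card_prod]
    let f : {i : ι // x • i = i} → fixedBy (G ⧸ M) x × (↥M ⧸ H.subgroupOf M) := fun i =>
      (⟨(e ((Equiv.ofBijective o ho).symm i.1)).1, by
          obtain ⟨g, hg⟩ := QuotientGroup.mk_surjective ((Equiv.ofBijective o ho).symm i.1)
          have hi : g • i₀ = i.1 := by
            have h := congrArg (Equiv.ofBijective o ho) hg
            rwa [Equiv.apply_symm_apply] at h
          have hxg : ((x * g : G) : G ⧸ H) = (g : G ⧸ H) := by
            apply ho.1
            show (x * g) • i₀ = g • i₀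
            rw [mul_smul, hi, i.2]
          rw [← hg, mem_fixedBy]
          show ((x * g : G) : G ⧸ M) = (g : G ⧸ M)
          rw [QuotientGroup.eq] at hxg ⊢
          exact hHM hxg⟩,
        (e ((Equiv.ofBijective o ho).symm i.1)).2)
    refine Nat.card_le_card_of_injective f fun i j h => ?_
    apply Subtype.ext
    apply (Equiv.ofBijective o ho).symm.injective
    apply e.injective
    exact Prod.ext (congrArg Subtype.val (Prod.mk.inj h).1) (Prod.mk.inj h).2
  have hcard : Nat.card ι = M.index * Nat.card (↥M ⧸ H.subgroupOf M) := by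
    rw [← Nat.card_congr (Equiv.ofBijective o ho), Nat.card_congr e, Nat.card_prod, Subgroup.index]
  rw [hcard]
  calc 3 * Nat.card {i : ι // x • i = i}
      ≤ 3 * (Nat.card (fixedBy (G ⧸ M) x) * Nat.card (↥M ⧸ H.subgroupOf M)) := Nat.mul_le_mul_left 3 hfix
    _ = (3 * Nat.card (fixedBy (G ⧸ M) x)) * Nat.card (↥M ⧸ H.subgroupOf M) := by ring
    _ ≤ M.index * Nat.card (↥M ⧸ H.subgroupOf M) := Nat.mul_le_mul_right _ hMmax

end Cfsg.Agent.H60.HalfFix
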